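import Mathlib
import Cfsg.Prelude.Def_OddOrderLocal

/-!
A Hall subgroup of a π-solvable group meets two conjugates in the π-core, given two vectors with trivial
common stabiliser for coprime actions of solvable groups.
-/

set_option autoImplicit false
set_option linter.style.haveILetI false
open Pointwise

universe u

namespace CfsgLib.ThreeVec49

variable {G : Type u} [Group G] [Finite G]

omit [Finite G] in
theorem card_mul_relIndex' {H K : Subgroup G} (h : H ≤ K) : Nat.card H * H.relIndex K = Nat.card K := by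
  rw [← Subgroup.relIndex_bot_left H, ← Subgroup.relIndex_bot_left K]
  exact Subgroup.relIndex_mul_relIndex _ _ _ bot_le h

omit [Finite G] in
theorem relIndex_dvd_right (H : Subgroup G) [H.Normal] {K L : Subgroup G} (h : K ≤ L) :
    H.relIndex K ∣ H.relIndex L := by
  rw [← Subgroup.relIndex_sup_right (H := K) (K := H), ← Subgroup.relIndex_sup_right (H := L) (K := H)]
  exact dvd_of_mul_right_eq _ (Subgroup.relIndex_mul_relIndex _ _ _ le_sup_right (sup_le_sup_right h H))

/-- All prime divisors of the order lie in `π`. -/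
def IsPiSub (π : Set ℕ) (H : Subgroup G) : Prop := ∀ p : ℕ, p.Prime → p ∣ Nat.card H → p ∈ π

theorem isPiSub_sup {π : Set ℕ} {H K : Subgroup G} [K.Normal] (hH : IsPiSub π H) (hK : IsPiSub π K) :
    IsPiSub π (H ⊔ K) := by
  intro p hp hd
  have h1 : Nat.card K * K.relIndex (H ⊔ K) = Nat.card ↥(H ⊔ K) := card_mul_relIndex' le_sup_right
  rw [← h1] at hd
  rcases hp.dvd_mul.1 hd with h | h
  · exact hK p hp h
  · rw [Subgroup.relIndex_sup_right] at h
    exact hH p hp (h.trans (Subgroup.relIndex_dvd_card K H))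

theorem isPiSub_piCore (π : Set ℕ) : IsPiSub π (Cfsg.piCore π G) := by
  obtain ⟨M, ⟨hMn, hM⟩, hmax⟩ := Set.Finite.exists_maximalFor id
    {M : Subgroup G | M.Normal ∧ IsPiSub π M} (Set.toFinite _)
    ⟨⊥, inferInstance, fun p hp hd => absurd (Nat.dvd_one.1 (Subgroup.card_bot (G := G) ▸ hd)) hp.one_lt.ne'⟩
  have : Cfsg.piCore π G = M := by
    refine le_antisymm (sSup_le fun K hK => ?_) (le_sSup ⟨hMn, hM⟩)
    haveI := hK.1
    haveI := hMn
    exact le_sup_right.trans (hmax (j := M ⊔ K) ⟨inferInstance, isPiSub_sup hM hK.2⟩ le_sup_left)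
  rwa [this]

theorem le_piCore {π : Set ℕ} {K : Subgroup G} (hK : K.Normal) (h : IsPiSub π K) : K ≤ Cfsg.piCore π G :=
  le_sSup ⟨hK, h⟩

theorem le_hall {π : Set ℕ} {H K : Subgroup G} (hH : Cfsg.IsPiHall π H) [K.Normal] (hK : IsPiSub π K) :
    K ≤ H := by
  have h1 : IsPiSub π (H ⊔ K) := isPiSub_sup hH.1 hK
  have h2 : H.relIndex (H ⊔ K) = 1 := by
    by_contra hne
    obtain ⟨p, hp, hd⟩ := Nat.exists_prime_and_dvd hne
    exact hH.2 p hp (h1 p hp (hd.trans (Subgroup.relIndex_dvd_card H _)))
      (hd.trans (Subgroup.relIndex_dvd_index_of_le le_sup_left))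
  exact le_sup_right.trans (Subgroup.relIndex_eq_one.1 h2)

variable {π : Set ℕ} {n : ℕ} {N : Fin (n + 1) → Subgroup G}

theorem centralizer_piCore_compl_le (hN0 : N 0 = ⊥) (hNn : N (Fin.last n) = ⊤) (hmono : Monotone N)
    (hnorm : ∀ i, (N i).Normal)
    (hstep : ∀ i : Fin n, (∃ p ∈ π, p.Prime ∧ ∃ k : ℕ, (N i.castSucc).relIndex (N i.succ) = p ^ k) ∨
      (∀ q : ℕ, q.Prime → q ∣ (N i.castSucc).relIndex (N i.succ) → q ∉ π))
    (hcore : Cfsg.piCore π G = ⊥) :
    Subgroup.centralizer (Cfsg.piCore (πᶜ) G : Set G) ≤ Cfsg.piCore (πᶜ) G := by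
  set R := Cfsg.piCore (πᶜ) G with hR
  set C := Subgroup.centralizer (R : Set G) with hC
  haveI : C.Normal := Subgroup.normal_centralizer (H := R)
  have hall : ∀ i, C ⊓ N i ≤ R := by
    intro i
    induction i using Fin.induction with
    | zero => rw [hN0, inf_bot_eq]; exact bot_le
    | succ i ih =>
      haveI := hnorm i.succ
      haveI := hnorm i.castSucc
      set M := C ⊓ N i.succ with hM
      set M0 := C ⊓ N i.castSucc with hM0
      have hle : M0 ≤ M := inf_le_inf_left C (hmono i.castSucc_lt_succ.le)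
      have hidx : M0.relIndex M ∣ (N i.castSucc).relIndex (N i.succ) := by
        have h1 : M0.relIndex M = (N i.castSucc).relIndex M := by
          rw [← Subgroup.inf_relIndex_right (N i.castSucc) M]
          congr 1
          apply le_antisymm
          · exact le_inf inf_le_right hle
          · exact le_inf (inf_le_right.trans inf_le_left) inf_le_left
        rw [h1]
        exact relIndex_dvd_right _ inf_le_right
      have hM0π : IsPiSub πᶜ M0 := fun p hp hd =>
        isPiSub_piCore πᶜ p hp (hd.trans (Subgroup.card_dvd_of_le ih))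
      have hcard : Nat.card M0 * M0.relIndex M = Nat.card M := card_mul_relIndex' hle
      rcases hstep i with ⟨p, hpπ, hp, k, hk⟩ | hq
      swap
      · refine le_piCore inferInstance fun r hr hd => ?_
        rw [← hcard] at hd
        rcases hr.dvd_mul.1 hd with h | h
        · exact hM0π r hr h
        · exact hq r hr (h.trans hidx)
      haveI := Fact.mk hp
      obtain ⟨j, -, hj⟩ := (Nat.dvd_prime_pow hp).1 (hk ▸ hidx)
      have hcop : (Nat.card M0).Coprime (p ^ j) := by
        refine Nat.Coprime.pow_right _ (Nat.coprime_comm.1 (hp.coprime_iff_not_dvd.2 fun hd => ?_))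
        exact hM0π p hp hd hpπ
      have hcent : ∀ a ∈ M0, ∀ b ∈ M, a * b = b * a := fun a ha b hb =>
        Subgroup.mem_centralizer_iff.1 hb.1 a (ih ha)
      obtain ⟨S⟩ : Nonempty (Sylow p M) := inferInstance
      have hSj : Nat.card S = p ^ j := by
        rw [S.card_eq_multiplicity, ← hcard, hj, Nat.factorization_mul (Nat.card_pos.ne') (pow_ne_zero _ hp.ne_zero),
          Finsupp.add_apply, Nat.factorization_eq_zero_of_not_dvd (fun hd => hM0π p hp hd hpπ), zero_add,
          Nat.Prime.factorization_pow hp, Finsupp.single_eq_same]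
      have hdecomp : ∀ x : M, ∃ a : M, ∃ b ∈ (S : Subgroup M), (a : G) ∈ M0 ∧ x = a * b := by
        have hbij : Function.Bijective (fun ab : M0.subgroupOf M × (S : Subgroup M) => (ab.1 : M) * (ab.2 : M)) := by
          refine (Nat.bijective_iff_injective_and_card _).2 ⟨?_, ?_⟩
          · rintro ⟨a, b⟩ ⟨a', b'⟩ h
            have h' : ((a' : M)⁻¹ * a) = (b' : M) * (b : M)⁻¹ := by
              rw [eq_mul_inv_iff_mul_eq, mul_assoc, inv_mul_eq_iff_eq_mul]
              exact h
            have hd1 : orderOf ((a' : M)⁻¹ * a) ∣ Nat.card M0 := by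
              rw [← Nat.card_congr (Subgroup.subgroupOfEquivOfLe hle).toEquiv]
              exact Subgroup.orderOf_dvd_natCard _ (mul_mem (inv_mem a'.2) a.2)
            have hd2 : orderOf ((a' : M)⁻¹ * a) ∣ p ^ j := by
              rw [h', ← hSj]
              exact Subgroup.orderOf_dvd_natCard _ (mul_mem b'.2 (inv_mem b.2))
            have h1 : (a' : M)⁻¹ * a = 1 := orderOf_eq_one_iff.1
              (Nat.eq_one_of_dvd_coprimes hcop hd1 hd2)
            have ha : (a' : M) = a := inv_mul_eq_one.1 h1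
            rw [h1] at h'
            exact Prod.ext (Subtype.ext ha.symm) (Subtype.ext (mul_inv_eq_one.1 h'.symm).symm)
          · rw [Nat.card_prod, Nat.card_congr (Subgroup.subgroupOfEquivOfLe hle).toEquiv, hSj, ← hj, hcard]
        intro x
        obtain ⟨⟨a, b⟩, hab⟩ := hbij.2 x
        exact ⟨a, b, b.2, a.2, hab.symm⟩
      -- the elements of `p`-power order
      have hiff : ∀ x : M, x ∈ (S : Subgroup M) ↔ x ^ (p ^ j) = 1 := by
        refine fun x => ⟨fun hx => ?_, fun hx => ?_⟩
        · rw [← orderOf_dvd_iff_pow_eq_one, ← hSj]; exact Subgroup.orderOf_dvd_natCard _ hx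
        · obtain ⟨a, b, hb, ha, rfl⟩ := hdecomp x
          have hc : Commute a b := Subtype.ext (hcent _ ha _ b.2)
          rw [hc.mul_pow] at hx
          have hb1 : b ^ p ^ j = 1 := by
            rw [← orderOf_dvd_iff_pow_eq_one, ← hSj]; exact Subgroup.orderOf_dvd_natCard _ hb
          rw [hb1, mul_one, ← orderOf_dvd_iff_pow_eq_one] at hx
          have ha1 : orderOf a ∣ Nat.card M0 := by
            rw [← Subgroup.orderOf_coe]; exact Subgroup.orderOf_dvd_natCard _ ha
          rw [orderOf_eq_one_iff.1 (Nat.eq_one_of_dvd_coprimes hcop ha1 hx), one_mul]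
          exact hb
      let P : Subgroup G := (S : Subgroup M).map M.subtype
      have hPn : P.Normal := ⟨fun x hx g => by
        obtain ⟨s, hs, rfl⟩ := hx
        refine ⟨⟨g * s * g⁻¹, (inferInstance : M.Normal).conj_mem _ s.2 g⟩, (hiff _).2 ?_, rfl⟩
        refine Subtype.ext ?_
        rw [SubmonoidClass.coe_pow, conj_pow, OneMemClass.coe_one]
        have := congrArg Subtype.val ((hiff s).1 hs)
        rw [SubmonoidClass.coe_pow, OneMemClass.coe_one] at this
        rw [this, mul_one, mul_inv_cancel]⟩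
      have hP : P = ⊥ := by
        rw [eq_bot_iff, ← hcore]
        refine le_piCore hPn fun r hr hd => ?_
        rw [Subgroup.card_map_of_injective M.subtype_injective, hSj] at hd
        rwa [(Nat.prime_dvd_prime_iff_eq hr hp).1 (hr.dvd_of_dvd_pow hd)]
      intro x hx
      obtain ⟨a, b, hb, ha, hab⟩ := hdecomp ⟨x, hx⟩
      have hb1 : (b : G) = 1 := by
        rw [← Subgroup.mem_bot, ← hP]; exact ⟨b, hb, rfl⟩
      have : x = (a : G) := by
        have h := congrArg Subtype.val hab
        rwa [Subgroup.coe_mul, hb1, mul_one] at h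
      exact this ▸ ih ha
  intro x hx
  exact hall (Fin.last n) ⟨hx, hNn.symm ▸ Subgroup.mem_top x⟩

theorem isSolvable_hall (hN0 : N 0 = ⊥) (hNn : N (Fin.last n) = ⊤) (hmono : Monotone N)
    (hnorm : ∀ i, (N i).Normal)
    (hstep : ∀ i : Fin n, (∃ p ∈ π, p.Prime ∧ ∃ k : ℕ, (N i.castSucc).relIndex (N i.succ) = p ^ k) ∨
      (∀ q : ℕ, q.Prime → q ∣ (N i.castSucc).relIndex (N i.succ) → q ∉ π))
    {H : Subgroup G} (hH : IsPiSub π H) : Group.IsSolvable H := by
  have hall : ∀ i, Group.IsSolvable ((N i).subgroupOf H) := by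
    intro i
    induction i using Fin.induction with
    | zero => rw [hN0, Subgroup.bot_subgroupOf]; infer_instance
    | succ i ih =>
      haveI := hnorm i.castSucc
      set M := (N i.succ).subgroupOf H
      set M0 := (N i.castSucc).subgroupOf H
      have hle : M0 ≤ M := fun x hx => hmono i.castSucc_lt_succ.le hx
      haveI : Group.IsSolvable (M0.subgroupOf M) :=
        Group.isSolvable_of_isSolvable_injective (f := (Subgroup.subgroupOfEquivOfLe hle).toMonoidHom)
          (Subgroup.subgroupOfEquivOfLe hle).injective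
      have hidx : (M0.subgroupOf M).index ∣ (N i.castSucc).relIndex (N i.succ) := by
        show M0.relIndex M ∣ _
        rw [show M0.relIndex M = (N i.castSucc).relIndex (H ⊓ N i.succ) by
          rw [← Subgroup.relIndex_map_map_of_injective M0 M H.subtype_injective,
            Subgroup.subgroupOf_map_subtype, Subgroup.subgroupOf_map_subtype,
            ← Subgroup.inf_relIndex_right (N i.castSucc) (H ⊓ N i.succ),
            inf_comm (N i.succ) H]
          congr 1
          apply le_antisymm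
          · exact le_inf inf_le_left (le_inf inf_le_right (inf_le_left.trans (hmono i.castSucc_lt_succ.le)))
          · exact le_inf inf_le_left (inf_le_right.trans inf_le_left)]
        exact relIndex_dvd_right _ inf_le_right
      haveI : Group.IsSolvable (M ⧸ M0.subgroupOf M) := by
        rcases hstep i with ⟨p, -, hp, k, hk⟩ | hq
        · haveI := Fact.mk hp
          rw [hk] at hidx
          obtain ⟨j, -, hj⟩ := (Nat.dvd_prime_pow hp).1 hidx
          haveI : Group.IsNilpotent (M ⧸ M0.subgroupOf M) := (IsPGroup.of_card hj).isNilpotent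
          infer_instance
        · have h1 : (M0.subgroupOf M).index = 1 := by
            by_contra hne
            obtain ⟨r, hr, hd⟩ := Nat.exists_prime_and_dvd hne
            exact hq r hr (hd.trans hidx) (hH r hr ((hd.trans (Subgroup.index_dvd_card _)).trans
              (Subgroup.card_subgroup_dvd_card M)))
          haveI : Subsingleton (M ⧸ M0.subgroupOf M) :=
            (Nat.card_eq_one_iff_unique.1 h1).1
          infer_instance
      exact (Group.isSolvable_iff_subgroup_quotient (M0.subgroupOf M)).2 ⟨inferInstance, inferInstance⟩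
  have h := hall (Fin.last n)
  rw [hNn] at h
  exact Group.isSolvable_of_surjective (f := ((⊤ : Subgroup G).subgroupOf H).subtype) fun x =>
    ⟨⟨x, Subgroup.mem_top _⟩, rfl⟩

omit [Finite G] in
theorem relIndex_map_dvd {G' : Type*} [Group G'] (f : G →* G') {A B : Subgroup G} (h : A ≤ B) :
    (A.map f).relIndex (B.map f) ∣ A.relIndex B := by
  rw [← Subgroup.relIndex_comap, Subgroup.comap_map_eq]
  exact Subgroup.relIndex_dvd_of_le_left B le_sup_left

/-- The reduction. -/
theorem exists_hall_meet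
    (hpair : ∀ (A K : Type u) [Group A] [Finite A] [Group K] [Finite K] [MulDistribMulAction A K]
      [FaithfulSMul A K], Group.IsSolvable A → (Nat.card A).Coprime (Nat.card K) →
        ∃ x y : K, ∀ a : A, a • x = x → a • y = y → a = 1)
    (π : Set ℕ)
    (hsolv : ∃ (n : ℕ) (N : Fin (n + 1) → Subgroup G), N 0 = ⊥ ∧ N (Fin.last n) = ⊤ ∧ Monotone N ∧
      (∀ i, (N i).Normal) ∧
      ∀ i : Fin n, (∃ p ∈ π, p.Prime ∧ ∃ k : ℕ, (N i.castSucc).relIndex (N i.succ) = p ^ k) ∨
        (∀ q : ℕ, q.Prime → q ∣ (N i.castSucc).relIndex (N i.succ) → q ∉ π))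
    (H : Subgroup G) (hH : Cfsg.IsPiHall π H) :
    ∃ x y : G, H ⊓ MulAut.conj x • H ⊓ MulAut.conj y • H = Cfsg.piCore π G := by
  obtain ⟨n, N, hN0, hNn, hmono, hnorm, hstep⟩ := hsolv
  set O := Cfsg.piCore π G with hO
  haveI : O.Normal := Cfsg.piCore_normal π G
  let q := QuotientGroup.mk' O
  have hq : Function.Surjective q := QuotientGroup.mk'_surjective O
  have hker : q.ker = O := QuotientGroup.ker_mk' O
  have hOH : O ≤ H := le_hall hH (isPiSub_piCore π)
  let N' : Fin (n + 1) → Subgroup (G ⧸ O) := fun i => (N i).map q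
  have hN0' : N' 0 = ⊥ := by show (N 0).map q = ⊥; rw [hN0, Subgroup.map_bot]
  have hNn' : N' (Fin.last n) = ⊤ := by
    show (N (Fin.last n)).map q = ⊤; rw [hNn, Subgroup.map_top_of_surjective q hq]
  have hmono' : Monotone N' := fun a b h => Subgroup.map_mono (hmono h)
  have hnorm' : ∀ i, (N' i).Normal := fun i => Subgroup.Normal.map (hnorm i) q hq
  have hstep' : ∀ i : Fin n,
      (∃ p ∈ π, p.Prime ∧ ∃ k : ℕ, (N' i.castSucc).relIndex (N' i.succ) = p ^ k) ∨
      (∀ r : ℕ, r.Prime → r ∣ (N' i.castSucc).relIndex (N' i.succ) → r ∉ π) := by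
    intro i
    have hd := relIndex_map_dvd q (hmono i.castSucc_lt_succ.le)
    rcases hstep i with ⟨p, hpπ, hp, k, hk⟩ | h
    · obtain ⟨j, -, hj⟩ := (Nat.dvd_prime_pow hp).1 (hk ▸ hd)
      exact Or.inl ⟨p, hpπ, hp, j, hj⟩
    · exact Or.inr fun r hr hrd => h r hr (hrd.trans hd)
  have hcore : Cfsg.piCore π (G ⧸ O) = ⊥ := by
    set K := Cfsg.piCore π (G ⧸ O) with hK
    haveI : K.Normal := Cfsg.piCore_normal π (G ⧸ O)
    have h1 : IsPiSub π (K.comap q) := by
      intro p hp hd
      have h2 : Nat.card O * O.relIndex (K.comap q) = Nat.card (K.comap q) :=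
        card_mul_relIndex' (fun x hx => by
          show q x ∈ K
          rw [show q x = 1 from (QuotientGroup.eq_one_iff x).2 hx]; exact one_mem K)
      rw [← h2] at hd
      rcases hp.dvd_mul.1 hd with h | h
      · exact isPiSub_piCore π p hp h
      · refine isPiSub_piCore (G := G ⧸ O) π p hp (h.trans ?_)
        have e := Subgroup.relIndex_comap (⊥ : Subgroup (G ⧸ O)) q (K.comap q)
        rw [MonoidHom.comap_bot, hker, Subgroup.map_comap_eq_self_of_surjective hq,
          Subgroup.relIndex_bot_left] at e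
        rw [e]
    rw [← Subgroup.map_comap_eq_self_of_surjective hq K, Subgroup.map_eq_bot_iff, hker]
    exact le_piCore inferInstance h1
  set H' := H.map q with hH'def
  set R := Cfsg.piCore (πᶜ) (G ⧸ O) with hR
  haveI : R.Normal := Cfsg.piCore_normal _ _
  have hH' : IsPiSub π H' := fun p hp hd => hH.1 p hp (hd.trans (Subgroup.card_map_dvd H q))
  haveI : Group.IsSolvable H' := isSolvable_hall hN0' hNn' hmono' hnorm' hstep' hH'
  have hcop : (Nat.card H').Coprime (Nat.card R) := Nat.coprime_of_dvd fun p hp h1 h2 =>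
    isPiSub_piCore πᶜ p hp h2 (hH' p hp h1)
  have hint : ∀ z, z ∈ H' → z ∈ R → z = 1 := fun z h1 h2 => orderOf_eq_one_iff.1
    (Nat.eq_one_of_dvd_coprimes hcop (Subgroup.orderOf_dvd_natCard _ h1) (Subgroup.orderOf_dvd_natCard _ h2))
  letI : MulDistribMulAction H' R :=
    MulDistribMulAction.compHom R ((MulAut.conjNormal : G ⧸ O →* MulAut R).comp H'.subtype)
  have hsm : ∀ (a : H') (r : R), ((a • r : R) : G ⧸ O) = (a : G ⧸ O) * r * (a : G ⧸ O)⁻¹ :=
    fun a r => MulAut.conjNormal_apply (a : G ⧸ O) r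
  haveI : FaithfulSMul H' R := ⟨fun {a b} h => by
    refine Subtype.ext (inv_mul_eq_one.1 (hint _ (mul_mem (inv_mem a.2) b.2) ?_))
    refine centralizer_piCore_compl_le hN0' hNn' hmono' hnorm' hstep' hcore ?_
    refine Subgroup.mem_centralizer_iff.2 fun r hr => ?_
    have h1 := congrArg Subtype.val (h ⟨r, hr⟩)
    rw [hsm, hsm] at h1
    calc r * ((a : G ⧸ O)⁻¹ * b) = (a : G ⧸ O)⁻¹ * ((a : G ⧸ O) * r * (a : G ⧸ O)⁻¹) * b := by group
      _ = (a : G ⧸ O)⁻¹ * b * r := by rw [h1]; group⟩
  obtain ⟨x, y, hxy⟩ := hpair H' R inferInstance hcop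
  obtain ⟨x₀, hx₀⟩ := hq x
  obtain ⟨y₀, hy₀⟩ := hq y
  refine ⟨x₀, y₀, le_antisymm ?_ ?_⟩
  · intro g hg
    obtain ⟨hg', hgy⟩ := Subgroup.mem_inf.1 hg
    obtain ⟨hgH, hgx⟩ := Subgroup.mem_inf.1 hg'
    rw [Subgroup.mem_pointwise_smul_iff_inv_smul_mem] at hgx hgy
    have hfix : ∀ (z : R) (z₀ : G), q z₀ = z → (MulAut.conj z₀)⁻¹ • g ∈ H →
        (⟨q g, g, hgH, rfl⟩ : H') • z = z := by
      intro z z₀ hz hgz
      rw [← map_inv, MulAut.smul_def, MulAut.conj_apply, inv_inv] at hgz
      have h1 : (z : G ⧸ O)⁻¹ * q g * z ∈ H' := ⟨_, hgz, by rw [map_mul, map_mul, map_inv, hz]⟩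
      have h2 : (q g)⁻¹ * ((z : G ⧸ O)⁻¹ * q g * z) = 1 := by
        refine hint _ (mul_mem (inv_mem ⟨g, hgH, rfl⟩) h1) ?_
        rw [show (q g)⁻¹ * ((z : G ⧸ O)⁻¹ * q g * z) = (q g)⁻¹ * (z : G ⧸ O)⁻¹ * (q g)⁻¹⁻¹ * z by group]
        exact mul_mem ((inferInstance : R.Normal).conj_mem _ (inv_mem z.2) _) z.2
      refine Subtype.ext ?_
      rw [hsm]
      show q g * (z : G ⧸ O) * (q g)⁻¹ = z
      calc q g * (z : G ⧸ O) * (q g)⁻¹
          = (z : G ⧸ O) * q g * ((q g)⁻¹ * ((z : G ⧸ O)⁻¹ * q g * z)) * (q g)⁻¹ := by group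
        _ = z := by rw [h2]; group
    have h := congrArg Subtype.val (hxy ⟨q g, g, hgH, rfl⟩ (hfix x x₀ hx₀ hgx) (hfix y y₀ hy₀ hgy))
    exact (QuotientGroup.eq_one_iff g).1 h
  · have hconj : ∀ z : G, O ≤ MulAut.conj z • H := fun z w hw => by
      rw [Subgroup.mem_pointwise_smul_iff_inv_smul_mem, ← map_inv, MulAut.smul_def, MulAut.conj_apply]
      exact hOH ((inferInstance : O.Normal).conj_mem w hw z⁻¹)
    exact le_inf (le_inf hOH (hconj x₀)) (hconj y₀)

end CfsgLib.ThreeVec49
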