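import Cfsg.Agent.ThreeVec49.Stab
import Cfsg.Agent.ThreeVec49.Colour

/-!
Three vectors with trivial common stabiliser in the presence of a frame.
-/

set_option autoImplicit false
set_option linter.style.haveILetI false
set_option linter.unusedSectionVars false

namespace CfsgLib.ThreeVec49

open CfsgLib.OddPair
open scoped commutatorElement

variable {A V : Type} [Group A] [Finite A] [AddCommGroup V] [Finite V] [DistribMulAction A V]
  [Nontrivial V] (φ : Frame A V)

/-- Conjugation on the field. -/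
def conjK (g : A) (r : φ.K) : φ.K := ⟨conjEnd g r, conjEnd_mem_ringOf g r.2⟩

theorem smul_smul_K (g : A) (r : φ.K) (y : V) : g • r • y = conjK φ g r • g • y :=
  smul_apply_eq_conjEnd g r y

variable [FaithfulSMul A V] [Group.IsSolvable A]

include φ in
theorem exists_triple_of_frame :
    ∃ u v w : V, ∀ g : A, g • u = u → g • v = v → g • w = w → g = 1 := by
  classical
  obtain ⟨v, q, hv, hq, hgen⟩ := exists_base (φ := φ)
  have hv0 : v ≠ 0 := hv.1
  haveI : ((blockStab φ v).subgroupOf φ.F).Normal := ⟨fun n hn g => by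
    rw [Subgroup.mem_subgroupOf] at hn ⊢
    push_cast
    have h1 : (g : A) * n * (g : A)⁻¹ = ⁅(g : A), (n : A)⁆ * n := by rw [commutatorElement_def]; group
    rw [h1]
    exact mul_mem (lineStab_le_blockStab hv0 (C_le_lineStab φ v (φ.comm_mem _ g.2 _ n.2))) hn⟩
  let X : Type := φ.F ⧸ (blockStab φ v).subgroupOf φ.F
  let gr : Group X := inferInstanceAs (Group (φ.F ⧸ (blockStab φ v).subgroupOf φ.F))
  letI : CommGroup X := { gr with
    mul_comm := fun a b => by
      induction a using QuotientGroup.induction_on with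
      | _ x =>
        induction b using QuotientGroup.induction_on with
        | _ y =>
          refine (QuotientGroup.eq).2 ?_
          rw [Subgroup.mem_subgroupOf]
          have h1 : (((x * y)⁻¹ * (y * x) : φ.F) : A) = ⁅(y : A)⁻¹, (x : A)⁻¹⁆ := by
            push_cast; rw [commutatorElement_def]; group
          rw [h1]
          exact lineStab_le_blockStab hv0
            (C_le_lineStab φ v (φ.comm_mem _ (inv_mem y.2) _ (inv_mem x.2))) }
  haveI : Finite X := inferInstanceAs (Finite (φ.F ⧸ (blockStab φ v).subgroupOf φ.F))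
  letI : Fintype X := Fintype.ofFinite X
  let mk : φ.F →* X := QuotientGroup.mk' _
  have hmk : Function.Surjective mk := QuotientGroup.mk'_surjective _
  have mk_eq_one : ∀ n : φ.F, mk n = 1 ↔ (n : A) ∈ blockStab φ v := fun n => by
    show (QuotientGroup.mk n : φ.F ⧸ (blockStab φ v).subgroupOf φ.F) = 1 ↔ _
    rw [QuotientGroup.eq_one_iff, Subgroup.mem_subgroupOf]
  -- representatives
  obtain ⟨rep, hrep, hrep1⟩ : ∃ rep : X → φ.F, (∀ x, mk (rep x) = x) ∧ rep 1 = 1 := by
    choose r hr using hmk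
    exact ⟨Function.update r 1 1, fun x => by
      rcases eq_or_ne x 1 with rfl | hx
      · rw [Function.update_self, map_one]
      · rw [Function.update_of_ne hx, hr], Function.update_self ..⟩
  obtain ⟨k, gen, κ, hκ1, hgentop, hκg, hκgg, hrigid⟩ := exists_rigid X
  -- eigenvalues
  have hscal : ∀ e : lineStab φ v, ∃ a : φ.Kˣ, (e : A) • v = (a : φ.K) • v := fun e =>
    exists_scalar_unit hv0 e.2
  choose ε hε using hscal
  let T : lineStab φ v → Module.End φ.K V := fun e => φ.linRep ⟨e, φ.F_le e.2.1⟩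
  let ev : X → lineStab φ v → φ.K := fun x e =>
    ((φ.unitHom ⟨⁅(e : A), (rep x : A)⁆, φ.comm_mem _ e.2.1 _ (rep x).2⟩ : φ.Kˣ) : φ.K) * (ε e : φ.K)
  have hev : ∀ (x : X) (e : lineStab φ v) (y : V), InBlock φ v y →
      T e ((rep x : A) • y) = ev x e • ((rep x : A) • y) := by
    intro x e y hy
    show (e : A) • (rep x : A) • y = _
    rw [← mul_smul, show (e : A) * (rep x : A) = ⁅(e : A), (rep x : A)⁆ * ((rep x : A) * e) by
      rw [commutatorElement_def]; group]
    rw [mul_smul, mul_smul, hy _ e.2 _ (hε e), smul_ring_comm φ (φ.F_le (rep x).2),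
      unit_smul (φ.comm_mem _ e.2.1 _ (rep x).2), smul_smul]
  have hsep : ∀ x x' : X, x ≠ x' → ∃ e, ev x e ≠ ev x' e := by
    intro x x' hne
    by_contra hall
    push Not at hall
    refine hne ?_
    rw [← hrep x, ← hrep x']
    refine (inv_mul_eq_one.1 ?_).symm
    rw [← map_inv, ← map_mul, mk_eq_one]
    refine ⟨((rep x')⁻¹ * rep x).2, Subgroup.mem_centralizer_iff.2 fun e he => ?_⟩
    have h1 := mul_right_cancel₀ (ε ⟨e, he⟩).ne_zero (hall ⟨e, he⟩)
    have h2 : ⁅e, (rep x : A)⁆ = ⁅e, (rep x' : A)⁆ :=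
      congrArg Subtype.val (φ.unitHom_injective (Units.ext h1))
    have h3 : (rep x : A) * e⁻¹ * (rep x : A)⁻¹ = (rep x' : A) * e⁻¹ * (rep x' : A)⁻¹ := by
      rw [commutatorElement_def, commutatorElement_def] at h2
      simpa [mul_assoc] using h2
    push_cast
    have h4 : ((rep x' : A)⁻¹ * (rep x : A)) * e⁻¹ = e⁻¹ * ((rep x' : A)⁻¹ * (rep x : A)) := by
      calc ((rep x' : A)⁻¹ * (rep x : A)) * e⁻¹
          = (rep x' : A)⁻¹ * ((rep x : A) * e⁻¹ * (rep x : A)⁻¹) * (rep x : A) := by group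
        _ = _ := by rw [h3]; group
    exact (Commute.inv_right_iff.1 h4).eq.symm
  have hindep : ∀ f f' : X → V, (∀ x, InBlock φ v (f x)) → (∀ x, InBlock φ v (f' x)) →
      ∑ x, (rep x : A) • f x = ∑ x, (rep x : A) • f' x → f = f' := by
    intro f f' hf hf' heq
    funext x
    refine smul_left_cancel (rep x : A) (sub_eq_zero.1 ?_)
    refine eq_zero_of_separated T ev hsep Finset.univ (fun x => (rep x : A) • f x - (rep x : A) • f' x)
      (fun i _ e => ?_) (by rw [Finset.sum_sub_distrib, heq, sub_self]) x (Finset.mem_univ x)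
    rw [map_sub, hev _ _ _ (hf i), hev _ _ _ (hf' i), smul_sub]
  -- the vectors
  obtain ⟨lam, hlam⟩ := exists_generator (φ := φ)
  have hqv : InBlock φ v (q • v) := (inBlock_self v).smul_blockStab hq
  let f₁ : X → V := fun x => if x = 1 then q • v else if κ x = 1 ∨ κ x = 3 then v else 0
  let f₂ : X → V := fun x => if x = 1 then (lam : φ.K) • q • v else if κ x = 1 ∨ κ x = 2 then v else 0
  have hf₁ : ∀ x, InBlock φ v (f₁ x) := fun x => by
    show InBlock φ v (ite _ _ _)
    split_ifs
    exacts [hqv, inBlock_self v, (block φ v).zero_mem]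
  have hf₂ : ∀ x, InBlock φ v (f₂ x) := fun x => by
    show InBlock φ v (ite _ _ _)
    split_ifs
    exacts [(block φ v).smul_mem _ hqv, inBlock_self v, (block φ v).zero_mem]
  refine ⟨v, ∑ x, (rep x : A) • f₁ x, ∑ x, (rep x : A) • f₂ x, fun g hgv hgw hgu => ?_⟩
  -- the element preserves the line stabiliser and so the blocks
  have hgv' : g⁻¹ • v = v := inv_smul_eq_iff.2 hgv.symm
  have hconjline : ∀ a : A, a • v = v → ∀ e ∈ lineStab φ v, a * e * a⁻¹ ∈ lineStab φ v := by
    intro a ha e he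
    obtain ⟨heF, r, hr⟩ := he
    refine ⟨φ.F_normal.conj_mem e heF a, conjK φ a r, ?_⟩
    rw [mul_smul, mul_smul, inv_smul_eq_iff.2 ha.symm, hr, smul_smul_K, ha]
  have hconjblock : ∀ a : A, a • v = v → ∀ m ∈ blockStab φ v, a * m * a⁻¹ ∈ blockStab φ v := by
    intro a ha m hm
    refine ⟨φ.F_normal.conj_mem m hm.1 a, Subgroup.mem_centralizer_iff.2 fun e he => ?_⟩
    have h1 := hconjline a⁻¹ (inv_smul_eq_iff.2 ha.symm) e he
    have h2 := Subgroup.mem_centralizer_iff.1 hm.2 _ h1
    calc e * (a * m * a⁻¹) = a * ((a⁻¹ * e * a⁻¹⁻¹) * m) * a⁻¹ := by group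
      _ = a * (m * (a⁻¹ * e * a⁻¹⁻¹)) * a⁻¹ := by rw [h2]
      _ = a * m * a⁻¹ * e := by group
  have hgblock : ∀ y, InBlock φ v y → InBlock φ v (g • y) := by
    intro y hy e he r hr
    have h1 := hconjline g⁻¹ hgv' e he
    obtain ⟨-, s, hs⟩ := id h1
    have h2 : g • (g⁻¹ * e * g⁻¹⁻¹) • y = e • g • y := by rw [← mul_smul, ← mul_smul]; congr 1; group
    have h3 : g • (g⁻¹ * e * g⁻¹⁻¹) • v = e • g • v := by rw [← mul_smul, ← mul_smul]; congr 1; group
    rw [hgv, hr, hs, smul_smul_K, hgv] at h3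
    rw [← h2, hy _ h1 _ hs, smul_smul_K, smul_left_injective φ.K hv0 h3]
  let cg : φ.F →* φ.F :=
    { toFun := fun n => ⟨g * n * g⁻¹, φ.F_normal.conj_mem _ n.2 g⟩
      map_one' := Subtype.ext (by simp)
      map_mul' := fun a b => Subtype.ext (by push_cast; group) }
  let σ : X →* X := QuotientGroup.map _ _ cg fun n hn => by
    rw [Subgroup.mem_comap, Subgroup.mem_subgroupOf]
    exact hconjblock g hgv _ (Subgroup.mem_subgroupOf.1 hn)
  have hσ : ∀ n : φ.F, σ (mk n) = mk (cg n) := fun n => rfl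
  have hσinj : Function.Injective σ := (injective_iff_map_eq_one σ).2 fun x hx => by
    obtain ⟨n, rfl⟩ := hmk x
    rw [hσ, mk_eq_one] at hx
    rw [mk_eq_one]
    have := hconjblock g⁻¹ hgv' _ hx
    rwa [show g⁻¹ * ((cg n : φ.F) : A) * g⁻¹⁻¹ = n by show g⁻¹ * (g * n * g⁻¹) * g⁻¹⁻¹ = _; group] at this
  have hσbij : Function.Bijective σ := Finite.injective_iff_bijective.1 hσinj
  let h : X → A := fun x => (rep (σ x) : A)⁻¹ * (g * (rep x : A) * g⁻¹)
  have hhB : ∀ x, h x ∈ blockStab φ v := fun x => by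
    have h1 : mk ((rep (σ x))⁻¹ * cg (rep x)) = 1 := by
      rw [map_mul, map_inv, hrep, ← hσ, hrep, inv_mul_cancel]
    exact (mk_eq_one _).1 h1
  have hh1 : h 1 = 1 := by simp [h, hrep1]
  have hmove : ∀ f : X → V, (∀ x, InBlock φ v (f x)) →
      g • ∑ x, (rep x : A) • f x = ∑ x, (rep x : A) • f x → ∀ x, f (σ x) = h x • g • f x := by
    intro f hf hfix x
    let e := Equiv.ofBijective σ hσbij
    have h1 := hindep (fun y => h (e.symm y) • g • f (e.symm y)) f
      (fun y => (hgblock _ (hf _)).smul_blockStab (hhB _)) hf (by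
        rw [← hfix, Finset.smul_sum]
        refine Fintype.sum_equiv e.symm _ _ fun y => ?_
        have h2 : σ (e.symm y) = y := e.apply_symm_apply y
        simp only [h, h2, ← mul_smul]
        congr 1
        group)
    have h3 := congrFun h1 (σ x)
    simp only [show e.symm (σ x) = x from e.symm_apply_apply x] at h3
    exact h3.symm
  have hw := hmove f₁ hf₁ hgw
  have hu := hmove f₂ hf₂ hgu
  -- the base block
  have hgq : g • q • v = q • v := by
    have h1 := hw 1
    simp only [f₁, map_one, hh1, if_pos, one_smul] at h1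
    exact h1.symm
  have hqv0 : q • v ≠ 0 := fun h0 => hv0 ((smul_eq_zero_iff_eq q).1 h0)
  have hlamfix : conjK φ g (lam : φ.K) = lam := by
    have h1 := hu 1
    simp only [f₂, map_one, hh1, if_pos, one_smul] at h1
    rw [smul_smul_K, hgq] at h1
    exact smul_left_injective φ.K hqv0 h1.symm
  have hgL : g ∈ φ.L := by
    refine Subgroup.mem_centralizer_iff.2 fun c hc => ?_
    obtain ⟨i, hi⟩ := hlam (φ.unitHom ⟨c, hc⟩)
    have hpow : ∀ i : ℕ, conjEnd g (((lam : φ.K) ^ i : φ.K) : AddMonoid.End V) = (((lam : φ.K) ^ i : φ.K) : AddMonoid.End V) := by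
      intro i
      induction i with
      | zero => simp [conjEnd, ← map_mul]
      | succ i ih =>
        rw [pow_succ, Subring.coe_mul, conjEnd_mul, ih]
        exact congrArg _ (congrArg Subtype.val hlamfix)
    have h1 := hpow i
    rw [← Units.val_pow_eq_pow_val, hi, φ.unitHom_apply, conjEnd, ← map_mul, ← map_mul] at h1
    have h2 : g * c * g⁻¹ = c := eq_of_smul_eq_smul (α := V) fun y => DFunLike.congr_fun h1 y
    calc c * g = g * c * g⁻¹ * g := by rw [h2]
      _ = g * c := by group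
  -- the colours
  have hne0 : ∀ x (y : V), h x • g • y = 0 ↔ y = 0 := fun x y => by
    rw [smul_eq_zero_iff_eq, smul_eq_zero_iff_eq]
  have hσid : ∀ x, σ x = x := by
    refine hrigid σ hσbij fun x => ?_
    rcases eq_or_ne x 1 with rfl | hx
    · rw [map_one]
    have hσx : σ x ≠ 1 := fun h0 => hx (hσinj (h0.trans (map_one σ).symm))
    have h1 : f₁ (σ x) = 0 ↔ f₁ x = 0 := by rw [hw x, hne0]
    have h2 : f₂ (σ x) = 0 ↔ f₂ x = 0 := by rw [hu x, hne0]
    simp only [f₁, f₂, if_neg hx, if_neg hσx, ite_eq_right_iff, hv0, imp_false] at h1 h2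
    generalize κ (σ x) = a at h1 h2 ⊢
    generalize κ x = b at h1 h2 ⊢
    revert h1 h2 a b
    decide
  -- fixed translates
  let Good : A → Prop := fun n => g • n • v = n • v
  have hgoodB : ∀ m ∈ blockStab φ v, g • m • v = m • v := by
    intro m hm
    obtain ⟨a, b, hab⟩ := hgen m hm
    rw [hab, smul_add, smul_ring_comm φ hgL, smul_ring_comm φ hgL, hgv, hgq]
  have hfixline : ∀ e ∈ φ.F, e • v = v → e ∈ lineStab φ v := fun e he h1 =>
    ⟨he, 1, h1.trans (one_smul φ.K v).symm⟩
  have hcol : ∀ x, κ x ≠ 0 → ∀ m ∈ blockStab φ v, Good ((rep x : A) * m) := by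
    intro x hx m hm
    have hx1 : x ≠ 1 := fun h0 => hx (h0 ▸ hκ1)
    have hxv : h x • v = v := by
      have h3 : (κ x = 1 ∨ κ x = 3) ∨ (κ x = 1 ∨ κ x = 2) := by
        revert hx; generalize κ x = b; revert b; decide
      rcases h3 with h3 | h3
      · have h4 := hw x
        simp only [hσid, f₁, if_neg hx1, if_pos h3, hgv] at h4
        exact h4.symm
      · have h4 := hu x
        simp only [hσid, f₂, if_neg hx1, if_pos h3, hgv] at h4
        exact h4.symm
    have hE : h x ∈ lineStab φ v := hfixline _ (hhB x).1 hxv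
    have hgx : g * (rep x : A) = (rep x : A) * h x * g := by
      simp only [h, hσid]; group
    show g • ((rep x : A) * m) • v = ((rep x : A) * m) • v
    rw [← mul_smul, ← mul_assoc, hgx, mul_smul, mul_smul, hgoodB m hm, mul_smul, ← mul_smul (h x),
      Subgroup.mem_centralizer_iff.1 hm.2 _ hE, mul_smul, hxv, ← mul_smul]
  have hgood : ∀ n : φ.F, (mk n = 1 ∨ κ (mk n) ≠ 0) → Good n := by
    rintro n (hn | hn)
    · exact hgoodB _ ((mk_eq_one n).1 hn)
    · have h1 : mk ((rep (mk n))⁻¹ * n) = 1 := by rw [map_mul, map_inv, hrep, inv_mul_cancel]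
      have h2 := hcol _ hn _ ((mk_eq_one _).1 h1)
      rwa [Subgroup.coe_mul, Subgroup.coe_inv, mul_inv_cancel_left] at h2
  let e : A → A := fun n => n⁻¹ * g * n * g⁻¹
  have heF : ∀ n ∈ φ.F, e n ∈ φ.F := fun n hn => by
    show n⁻¹ * g * n * g⁻¹ ∈ φ.F
    rw [show n⁻¹ * g * n * g⁻¹ = n⁻¹ * (g * n * g⁻¹) by group]
    exact mul_mem (inv_mem hn) (φ.F_normal.conj_mem n hn g)
  have hefix : ∀ n, Good n → e n • v = v := fun n hn => by
    show (n⁻¹ * g * n * g⁻¹) • v = v
    rw [mul_smul, mul_smul, mul_smul, hgv', (hn : g • n • v = n • v), inv_smul_smul]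
  have hpair : ∀ n m : A, n ∈ φ.F → m ∈ φ.F → Good n → Good m → Good (n * m) → m * e n = e n * m := by
    intro n m hn hm gn gm gnm
    have h1 : (m⁻¹ * e n * m) • v = v := by
      rw [show m⁻¹ * e n * m = e (n * m) * (e m)⁻¹ by simp only [e]; group, mul_smul,
        inv_smul_eq_iff.2 (hefix m gm).symm, hefix _ gnm]
    set c := ⁅(e n)⁻¹, m⁻¹⁆ with hc
    have hcC : c ∈ φ.C := φ.comm_mem _ (inv_mem (heF n hn)) _ (inv_mem hm)
    have h2 : e n * c = m⁻¹ * e n * m := by rw [hc, commutatorElement_def]; group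
    rw [← h2, φ.comm_C_L hcC (φ.F_le (heF n hn)) |>.symm, mul_smul, hefix n gn] at h1
    have h3 : c = 1 := by
      by_contra h0
      exact hv0 (φ.eq_zero_of_fixed hcC h0 h1)
    rw [h3, mul_one] at h2
    calc m * e n = m * (m⁻¹ * e n * m) := by rw [← h2]
      _ = e n * m := by group
  have hall : ∀ z : A, (∀ m ∈ blockStab φ v, z * m = m * z) →
      (∀ i, z * (rep (gen i) : A) = (rep (gen i) : A) * z) → ∀ f ∈ φ.F, z * f = f * z := by
    intro z hzB hzg f hf
    let H : Subgroup φ.F := (Subgroup.centralizer {z}).subgroupOf φ.F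
    have hH : ∀ n : φ.F, n ∈ H ↔ z * n = n * z := fun n => by
      rw [Subgroup.mem_subgroupOf, Subgroup.mem_centralizer_iff]
      simp
    have htop : H.map mk = ⊤ := hgentop _ fun i => ⟨rep (gen i), (hH _).2 (hzg i), hrep _⟩
    obtain ⟨n, hn, hnf⟩ : mk ⟨f, hf⟩ ∈ H.map mk := htop ▸ Subgroup.mem_top _
    have h1 : mk (n⁻¹ * ⟨f, hf⟩) = 1 := by rw [map_mul, map_inv, hnf, inv_mul_cancel]
    have h2 := mul_mem hn ((hH _).2 (hzB _ ((mk_eq_one _).1 h1)))
    rw [mul_inv_cancel_left] at h2
    exact (hH _).1 h2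
  have hzero : ∀ z : A, z • v = v → (∀ m ∈ blockStab φ v, z * m = m * z) →
      (∀ i, z * (rep (gen i) : A) = (rep (gen i) : A) * z) → z = 1 := by
    intro z hzv hzB hzg
    have hzC : z ∈ φ.C := by
      rw [← φ.centralizer_F]
      exact Subgroup.mem_centralizer_iff.2 fun f hf => (hall z hzB hzg f hf).symm
    by_contra h0
    exact hv0 (φ.eq_zero_of_fixed hzC h0 hzv)
  have hggood : ∀ i, Good (rep (gen i) : A) := fun i => hgood _ (Or.inr (by rw [hrep]; exact hκg i))
  have hBcomm : ∀ z ∈ lineStab φ v, ∀ m ∈ blockStab φ v, z * m = m * z := fun z hz m hm =>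
    Subgroup.mem_centralizer_iff.1 hm.2 z hz
  have hegen : ∀ i, g * (rep (gen i) : A) = (rep (gen i) : A) * g := by
    intro i
    have h1 : e (rep (gen i) : A) = 1 := hzero _ (hefix _ (hggood i))
      (hBcomm _ (hfixline _ (heF _ (rep (gen i)).2) (hefix _ (hggood i)))) fun j =>
      (hpair _ _ (rep (gen i)).2 (rep (gen j)).2 (hggood i) (hggood j) (by
        refine hgood (rep (gen i) * rep (gen j)) ?_
        rw [map_mul, hrep, hrep]
        exact or_iff_not_imp_left.2 (hκgg i j))).symm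
    calc g * (rep (gen i) : A) = (rep (gen i) : A) * e (rep (gen i) : A) * g := by simp only [e]; group
      _ = _ := by rw [h1, mul_one]
  have heB : ∀ m ∈ blockStab φ v, g * m = m * g := by
    intro m hm
    have h1 : e m = 1 := hzero _ (hefix _ (hgoodB m hm))
      (hBcomm _ (hfixline _ (heF _ hm.1) (hefix _ (hgoodB m hm)))) fun j =>
      (hpair _ _ hm.1 (rep (gen j)).2 (hgoodB m hm) (hggood j) (by
        refine hgood (⟨m, hm.1⟩ * rep (gen j)) (Or.inr ?_)
        rw [map_mul, (mk_eq_one ⟨m, hm.1⟩).2 hm, one_mul, hrep]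
        exact hκg j)).symm
    calc g * m = m * e m * g := by simp only [e]; group
      _ = _ := by rw [h1, mul_one]
  exact hzero g hgv heB hegen

end CfsgLib.ThreeVec49
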