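import Cfsg.Agent.OddPair.Main
import Cfsg.Agent.ThreeVec49.FrameTriple
import Cfsg.Agent.ThreeVec49.System

/-!
Completely reducible solvable groups have three vectors with trivial common stabiliser.
-/

set_option autoImplicit false
set_option linter.style.haveILetI false

namespace CfsgLib.ThreeVec49

open CfsgLib.OddPair

/-- A triple for an invariant subgroup of smaller order. -/
theorem triple_sub {n : ℕ} (IH : TripleBelow n) {A V : Type} [Group A] [Finite A] [AddCommGroup V] [Finite V]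
    [DistribMulAction A V] (hs : Group.IsSolvable A) (hcr : IsCR A V)
    (hV : Nat.card V ≤ n + 1) (U : AddSubgroup V) (hU : ∀ a : A, ∀ v ∈ U, a • v ∈ U) (hne : U ≠ ⊤) :
    ∃ u ∈ U, ∃ v ∈ U, ∃ w ∈ U, ∀ a : A, a • u = u → a • v = v → a • w = w → ∀ x ∈ U, a • x = x := by
  letI := subAction U hU
  have hcard : Nat.card U ≤ n := by
    have h1 : Nat.card U ≤ Nat.card V := Nat.card_le_card_of_injective _ Subtype.val_injective
    have h2 : Nat.card U ≠ Nat.card V := fun h => hne (AddSubgroup.eq_top_of_card_eq U h)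
    omega
  have hcrU : IsCR A U := by
    intro S hS
    obtain ⟨S', hS', hinf, hsup⟩ := hcr (S.map U.subtype) (by
      rintro a _ ⟨u, hu, rfl⟩
      exact ⟨a • u, hS a u hu, rfl⟩)
    refine ⟨S'.comap U.subtype, fun a u hu => hS' a (u : V) hu, ?_, ?_⟩
    · rw [eq_bot_iff]
      intro u hu
      have h : (u : V) ∈ (⊥ : AddSubgroup V) := hinf ▸ ⟨⟨u, hu.1, rfl⟩, hu.2⟩
      exact AddSubgroup.mem_bot.mpr (Subtype.ext (AddSubgroup.mem_bot.mp h))
    · rw [eq_top_iff]
      intro u _
      have h : (u : V) ∈ S.map U.subtype ⊔ S' := hsup.symm ▸ AddSubgroup.mem_top _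
      obtain ⟨_, ⟨y, hy, rfl⟩, z, hz, hyz⟩ := AddSubgroup.mem_sup.mp h
      have hzU : z ∈ U := by
        rw [show z = (u : V) - (y : V) from eq_sub_of_add_eq' hyz]
        exact sub_mem u.2 y.2
      exact AddSubgroup.mem_sup.mpr ⟨y, hy, ⟨z, hzU⟩, hz, Subtype.ext hyz⟩
  obtain ⟨u, v, w, h⟩ := IH U hcard A hs hcrU
  exact ⟨u, u.2, v, v.2, w, w.2, fun a h₁ h₂ h₃ x hx =>
    congrArg Subtype.val (h a (Subtype.ext h₁) (Subtype.ext h₂) (Subtype.ext h₃) ⟨x, hx⟩)⟩

theorem tripleBelow : ∀ n, TripleBelow n := by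
  intro n
  induction n with
  | zero =>
    intro V _ _ hV
    exact absurd hV (Nat.not_le.mpr Nat.card_pos)
  | succ n IH =>
    intro V _ _ hV A _ _ _ hs hcr
    classical
    by_cases hirr : IsIrr A V
    swap
    · unfold IsIrr at hirr
      push Not at hirr
      obtain ⟨U, hU, hU0, hU1⟩ := hirr
      obtain ⟨W, hW, hinf, hsup⟩ := hcr U hU
      have hW1 : W ≠ ⊤ := fun h => hU0 (by rw [← hinf, h, inf_top_eq])
      obtain ⟨u₁, hu₁, u₂, hu₂, u₃, hu₃, hpU⟩ := triple_sub IH hs hcr hV U hU hU1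
      obtain ⟨w₁, hw₁, w₂, hw₂, w₃, hw₃, hpW⟩ := triple_sub IH hs hcr hV W hW hW1
      refine ⟨u₁ + w₁, u₂ + w₂, u₃ + w₃, fun a ha ha' ha'' x => ?_⟩
      have split : ∀ {u w : V}, u ∈ U → w ∈ W → a • (u + w) = u + w → a • u = u ∧ a • w = w := by
        intro u w hu hw h
        rw [smul_add] at h
        have h1 : a • u - u = w - a • w := by
          rw [sub_eq_sub_iff_add_eq_add, h, add_comm]
        have h3 : a • u - u ∈ W := by
          rw [h1]
          exact sub_mem hw (hW a w hw)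
        have h2 : a • u - u ∈ (⊥ : AddSubgroup V) := by
          rw [← hinf]
          exact AddSubgroup.mem_inf.mpr ⟨sub_mem (hU a u hu) hu, h3⟩
        rw [AddSubgroup.mem_bot] at h2
        refine ⟨sub_eq_zero.mp h2, ?_⟩
        rw [h2] at h1
        exact (sub_eq_zero.mp h1.symm).symm
      obtain ⟨hu1', hw1'⟩ := split hu₁ hw₁ ha
      obtain ⟨hu2', hw2'⟩ := split hu₂ hw₂ ha'
      obtain ⟨hu3', hw3'⟩ := split hu₃ hw₃ ha''
      obtain ⟨y, hy, z, hz, rfl⟩ := AddSubgroup.mem_sup.mp (hsup.symm ▸ AddSubgroup.mem_top x : x ∈ U ⊔ W)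
      rw [smul_add, hpU a hu1' hu2' hu3' y hy, hpW a hw1' hw2' hw3' z hz]
    rcases subsingleton_or_nontrivial V with hsub | hnt
    · exact ⟨0, 0, 0, fun a _ _ _ x => Subsingleton.elim _ _⟩
    -- pass to the group of permutations induced on `V`
    let π : A →* Equiv.Perm V := MulAction.toPermHom A V
    let B := π.range
    have happ : ∀ g : B, ∃ a : A, ∀ x : V, (g : Equiv.Perm V) x = a • x := fun g => by
      obtain ⟨a, ha⟩ := g.2
      exact ⟨a, fun x => by rw [← ha]; rfl⟩
    letI : DistribMulAction B V :=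
      { smul := fun g x => (g : Equiv.Perm V) x
        one_smul := fun x => rfl
        mul_smul := fun g h x => rfl
        smul_zero := fun g => by
          obtain ⟨a, ha⟩ := happ g
          exact (ha 0).trans (smul_zero a)
        smul_add := fun g x y => by
          obtain ⟨a, ha⟩ := happ g
          show (g : Equiv.Perm V) (x + y) = (g : Equiv.Perm V) x + (g : Equiv.Perm V) y
          rw [ha, ha, ha, smul_add] }
    haveI : FaithfulSMul B V := ⟨fun {g h} e => Subtype.ext (Equiv.ext e)⟩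
    haveI hsB : Group.IsSolvable B := Group.isSolvable_of_surjective π.rangeRestrict_surjective
    have hirrB : IsIrr B V := fun U hU => hirr U fun a v hv => hU ⟨π a, a, rfl⟩ v hv
    suffices h : ∃ u v w : V, ∀ g : B, g • u = u → g • v = v → g • w = w → ∀ x : V, g • x = x by
      obtain ⟨u, v, w, h⟩ := h
      exact ⟨u, v, w, fun a ha ha' ha'' x => h ⟨π a, a, rfl⟩ ha ha' ha'' x⟩
    rcases triple_or_inv IH hV hsB hirrB with h | hinv
    · exact h
    obtain ⟨φ⟩ := exists_frame hinv
    obtain ⟨u, v, w, h⟩ := exists_triple_of_frame φ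
    exact ⟨u, v, w, fun g hg hg' hg'' x => by rw [h g hg hg' hg'', one_smul]⟩

end CfsgLib.ThreeVec49
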