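import Cfsg.Agent.OddPair.Transfer
import Cfsg.Agent.ThreeVec49.Main

/-!
The three vectors for modules in any universe.
-/

set_option autoImplicit false
set_option linter.style.haveILetI false

namespace CfsgLib.ThreeVec49

open CfsgLib.OddPair

universe u v

/-- A faithful completely reducible solvable group has three vectors with trivial common stabiliser. -/
theorem exists_triple_of_isSolvable {A : Type u} {V : Type v} [Group A] [Finite A] [AddCommGroup V] [Finite V]
    [DistribMulAction A V] [FaithfulSMul A V] (hs : Group.IsSolvable A) (hcr : IsCR A V) :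
    ∃ x y z : V, ∀ a : A, a • x = x → a • y = y → a • z = z → a = 1 := by
  obtain ⟨m, ⟨eV₀⟩⟩ := Finite.exists_equiv_fin V
  let eV : V ≃ Pt m := eV₀.trans (ptEquiv m)
  letI : AddCommGroup (Pt m) := eV.symm.addCommGroup
  let f : V ≃+ Pt m := eV.symm.addEquiv.symm
  let π : A →* Equiv.Perm (Pt m) :=
    eV.permCongrHom.toMonoidHom.comp (MulAction.toPermHom A V)
  have hπ : ∀ (a : A) (x : V), π a (f x) = f (a • x) := fun a x => by
    show eV (a • eV.symm (f x)) = f (a • x)
    rw [show eV.symm (f x) = x from eV.symm_apply_apply x]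
    rfl
  let B := π.range
  have happ : ∀ g : B, ∃ a : A, π a = (g : Equiv.Perm (Pt m)) := fun g => g.2
  letI : DistribMulAction B (Pt m) :=
    { smul := fun g x => (g : Equiv.Perm (Pt m)) x
      one_smul := fun x => rfl
      mul_smul := fun g h x => rfl
      smul_zero := fun g => by
        obtain ⟨a, ha⟩ := happ g
        show (g : Equiv.Perm (Pt m)) 0 = 0
        rw [← ha, ← map_zero f, hπ, smul_zero]
      smul_add := fun g x y => by
        obtain ⟨a, ha⟩ := happ g
        obtain ⟨x, rfl⟩ := f.surjective x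
        obtain ⟨y, rfl⟩ := f.surjective y
        show (g : Equiv.Perm (Pt m)) (f x + f y) = (g : Equiv.Perm (Pt m)) (f x) + (g : Equiv.Perm (Pt m)) (f y)
        rw [← ha, ← map_add, hπ, hπ, hπ, smul_add, map_add] }
  haveI := hs
  have hsB : Group.IsSolvable B := Group.isSolvable_of_surjective π.rangeRestrict_surjective
  have hcrB : IsCR B (Pt m) := by
    intro U hU
    obtain ⟨W, hW, hinf, hsup⟩ := hcr (U.comap (f : V →+ Pt m)) fun a x hx => by
      show f (a • x) ∈ U
      rw [← hπ]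
      exact hU ⟨π a, a, rfl⟩ (f x) hx
    refine ⟨W.map (f : V →+ Pt m), ?_, ?_, ?_⟩
    · rintro g _ ⟨w, hw, rfl⟩
      obtain ⟨a, ha⟩ := happ g
      exact ⟨a • w, hW a w hw, (hπ a w).symm.trans (by rw [ha]; rfl)⟩
    · rw [eq_bot_iff]
      rintro _ ⟨hxU, w, hw, rfl⟩
      have h : w ∈ (⊥ : AddSubgroup V) := by
        rw [← hinf]
        exact AddSubgroup.mem_inf.mpr ⟨hxU, hw⟩
      rw [AddSubgroup.mem_bot] at h ⊢
      rw [h, map_zero]
    · rw [eq_top_iff]
      intro x _
      obtain ⟨x, rfl⟩ := f.surjective x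
      obtain ⟨y, hy, z, hz, hyz⟩ := AddSubgroup.mem_sup.mp
        (hsup.symm ▸ AddSubgroup.mem_top x : x ∈ U.comap (f : V →+ Pt m) ⊔ W)
      exact AddSubgroup.mem_sup.mpr ⟨f y, hy, f z, ⟨z, hz, rfl⟩, by rw [← map_add, hyz]⟩
  obtain ⟨u, v, w, h⟩ := tripleBelow _ (Pt m) le_rfl B hsB hcrB
  obtain ⟨u, rfl⟩ := f.surjective u
  obtain ⟨v, rfl⟩ := f.surjective v
  obtain ⟨w, rfl⟩ := f.surjective w
  refine ⟨u, v, w, fun a ha ha' ha'' => eq_of_smul_eq_smul (α := V) fun x => ?_⟩
  have h1 := h ⟨π a, a, rfl⟩ ((hπ a u).trans (by rw [ha])) ((hπ a v).trans (by rw [ha']))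
    ((hπ a w).trans (by rw [ha''])) (f x)
  rw [one_smul]
  exact f.injective ((hπ a x).symm.trans h1)

end CfsgLib.ThreeVec49
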