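import Mathlib

/-!
Two facts about eigenvectors.

* `eq_zero_of_separated`: eigenvectors for separated systems of eigenvalues are independent;
* `exists_eigen`: if `T (S y) = ζ S (T y)` with `ζ` a primitive `r`-th root and `T ^ r` is the scalar
  `s ^ r` on an invariant subspace, then `T` has an eigenvector there for `s`.
-/

set_option autoImplicit false

namespace CfsgLib.ThreeVec49

variable {R V : Type*} [Field R] [AddCommGroup V] [Module R V]

theorem eq_zero_of_separated {ι E : Type*} (T : E → Module.End R V) (ε : ι → E → R)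
    (hsep : ∀ i j, i ≠ j → ∃ e, ε i e ≠ ε j e) (s : Finset ι) (f : ι → V)
    (hf : ∀ i ∈ s, ∀ e, T e (f i) = ε i e • f i) (hsum : ∑ i ∈ s, f i = 0) : ∀ i ∈ s, f i = 0 := by
  classical
  induction s using Finset.induction generalizing f with
  | empty => intro i hi; exact absurd hi (Finset.notMem_empty i)
  | @insert a s ha ih =>
    have hrest : ∀ i ∈ s, f i = 0 := by
      intro i hi
      obtain ⟨e, he⟩ := hsep i a (fun h => ha (h ▸ hi))
      have h := ih (fun j => (ε j e - ε a e) • f j)
        (fun j hj e' => by rw [map_smul, hf j (Finset.mem_insert_of_mem hj), smul_comm]) (by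
          have h1 := congrArg (fun w => T e w - ε a e • w) hsum
          simp only [map_sum, Finset.smul_sum, map_zero, smul_zero, sub_zero, ← Finset.sum_sub_distrib] at h1
          rw [Finset.sum_insert ha, hf a (Finset.mem_insert_self a s), sub_self, zero_add] at h1
          refine Eq.trans (Finset.sum_congr rfl fun j hj => ?_) h1
          rw [sub_smul, hf j (Finset.mem_insert_of_mem hj)]) i hi
      exact (smul_eq_zero.1 h).resolve_left (sub_ne_zero.2 he)
    intro i hi
    rcases Finset.mem_insert.1 hi with rfl | hi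
    · rwa [Finset.sum_insert ha, Finset.sum_eq_zero hrest, add_zero] at hsum
    · exact hrest i hi

theorem exists_eigen {r : ℕ} (hr : 1 < r) {ζ : R} (hζ : IsPrimitiveRoot ζ r) (T S : Module.End R V)
    (W : Submodule R V) (hS : Function.Injective S) (hSW : ∀ y ∈ W, S y ∈ W) (hTW : ∀ y ∈ W, T y ∈ W)
    (hTS : ∀ y, T (S y) = ζ • S (T y)) {s : R} (hs : s ≠ 0) (hpow : ∀ y ∈ W, (T ^ r) y = s ^ r • y)
    {y₀ : V} (hy₀ : y₀ ∈ W) (hne : y₀ ≠ 0) : ∃ y ∈ W, y ≠ 0 ∧ T y = s • y := by
  by_contra hno
  push Not at hno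
  have hcomm : ∀ i j : ℕ, ∀ y, (T ^ j) ((S ^ i) y) = (ζ ^ (i * j)) • (S ^ i) ((T ^ j) y) := by
    have hone : ∀ i : ℕ, ∀ y, T ((S ^ i) y) = (ζ ^ i) • (S ^ i) (T y) := by
      intro i
      induction i with
      | zero => simp
      | succ i ih =>
        intro y
        rw [pow_succ', Module.End.mul_apply, hTS, ih, map_smul, smul_smul, ← pow_succ',
          Module.End.mul_apply]
    intro i j
    induction j with
    | zero => simp
    | succ j ih =>
      intro y
      simp only [pow_succ', Module.End.mul_apply]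
      rw [ih, map_smul, hone, smul_smul, ← pow_add, Nat.mul_succ]
  have hE : ∀ y ∈ W, ∑ j ∈ Finset.range r, (s⁻¹) ^ j • (T ^ j) y = 0 := by
    intro y hy
    set w := ∑ j ∈ Finset.range r, (s⁻¹) ^ j • (T ^ j) y with hw
    have hwW : w ∈ W := W.sum_mem fun j hj => W.smul_mem _ (by
      clear hj
      induction j with
      | zero => simpa using hy
      | succ j ih => rw [pow_succ', Module.End.mul_apply]; exact hTW _ ih)
    have hTw : T w = s • w := by
      have h1 : T w = ∑ j ∈ Finset.range r, s • ((s⁻¹) ^ (j + 1) • (T ^ (j + 1)) y) := by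
        rw [hw, map_sum]
        refine Finset.sum_congr rfl fun j _ => ?_
        rw [map_smul, ← Module.End.mul_apply, ← pow_succ', smul_smul]
        congr 1
        rw [pow_succ]
        field_simp
      rw [h1, ← Finset.smul_sum]
      congr 1
      have h2 := Finset.sum_range_succ (fun j => (s⁻¹) ^ j • (T ^ j) y) r
      rw [Finset.sum_range_succ' (fun j => (s⁻¹) ^ j • (T ^ j) y) r] at h2
      simp only [pow_zero, one_smul, Module.End.one_apply] at h2
      rw [hpow y hy, smul_smul, ← mul_pow, inv_mul_cancel₀ hs, one_pow, one_smul] at h2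
      exact add_right_cancel h2
    by_contra hw0
    exact hno w hwW hw0 hTw
  have hkey : ∀ i : ℕ, ∑ j ∈ Finset.range r, (ζ ^ j) ^ i • (s⁻¹) ^ j • (T ^ j) y₀ = 0 := by
    intro i
    have hiW : (S ^ i) y₀ ∈ W := by
      induction i with
      | zero => simpa using hy₀
      | succ i ih => rw [pow_succ', Module.End.mul_apply]; exact hSW _ ih
    have h := hE _ hiW
    have hinj : Function.Injective (S ^ i : Module.End R V) := by
      rw [Module.End.coe_pow]; exact hS.iterate i
    refine hinj ?_
    rw [map_zero, map_sum]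
    refine Eq.trans (Finset.sum_congr rfl fun j _ => ?_) h
    rw [hcomm, map_smul, map_smul, smul_comm, ← pow_mul, mul_comm j i]
  have hsum : ∑ i ∈ Finset.range r, ∑ j ∈ Finset.range r, (ζ ^ j) ^ i • (s⁻¹) ^ j • (T ^ j) y₀ = 0 :=
    Finset.sum_eq_zero fun i _ => hkey i
  rw [Finset.sum_comm, Finset.sum_eq_single 0] at hsum
  · simp only [pow_zero, one_pow, one_smul, Module.End.one_apply, Finset.sum_const, Finset.card_range] at hsum
    haveI : NeZero r := ⟨by omega⟩
    haveI := hζ.neZero'
    rw [← Nat.cast_smul_eq_nsmul R] at hsum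
    exact hne ((smul_eq_zero.1 hsum).resolve_left (NeZero.ne _))
  · intro j hj hj0
    rw [← Finset.sum_smul]
    have hζj : ζ ^ j ≠ 1 := hζ.pow_ne_one_of_pos_of_lt hj0 (Finset.mem_range.1 hj)
    rw [geom_sum_eq hζj, ← pow_mul, mul_comm, pow_mul, hζ.pow_eq_one, one_pow, sub_self, zero_div, zero_smul]
  · intro h
    exact absurd (Finset.mem_range.2 (by omega : (0 : ℕ) < r)) h

end CfsgLib.ThreeVec49
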