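import Cfsg.Agent.OddPair.Bounds
import Cfsg.Agent.ThreeVec49.Eigen

/-!
The stabiliser of a line inside the class-two subgroup of a frame.

* `lineStab φ v`: the elements of `F` mapping `v` to a multiple of `v`;
* `InBlock φ v y`: `y` is an eigenvector for the same eigenvalues;
* `exists_base`: some `v` has `lineStab` as large as possible and the centraliser of `lineStab φ v`
  in `F` maps `v` into the span of `v` and `q • v` for one element `q`.
-/

set_option autoImplicit false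
set_option linter.style.haveILetI false
set_option linter.unusedSectionVars false

namespace CfsgLib.ThreeVec49

open CfsgLib.OddPair
open scoped commutatorElement

theorem tri_succ (i : ℕ) : (i + 1).choose 2 = i + i.choose 2 := by
  rw [Nat.choose_succ_succ, Nat.choose_one_right]

section Group

variable {A : Type*} [Group A] {a b c : A}

theorem pow_swap (h : a * b = b * a * c) (hca : Commute c a) (hcb : Commute c b) (i : ℕ) :
    a ^ i * b = b * a ^ i * c ^ i := by
  induction i with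
  | zero => simp
  | succ i ih =>
    calc a ^ (i + 1) * b = a ^ i * (a * b) := by rw [pow_succ, mul_assoc]
      _ = a ^ i * b * a * c := by rw [h]; group
      _ = b * a ^ i * (c ^ i * a) * c := by rw [ih]; group
      _ = b * a ^ i * (a * c ^ i) * c := by rw [(hca.pow_left i).eq]
      _ = b * a ^ (i + 1) * c ^ (i + 1) := by rw [pow_succ, pow_succ]; group

theorem pow_swap_pow (h : a * b = b * a * c) (hca : Commute c a) (hcb : Commute c b) (i j : ℕ) :
    a ^ i * b ^ j = b ^ j * a ^ i * c ^ (i * j) := by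
  induction j with
  | zero => simp
  | succ j ih =>
    calc a ^ i * b ^ (j + 1) = a ^ i * b ^ j * b := by rw [pow_succ, mul_assoc]
      _ = b ^ j * a ^ i * (c ^ (i * j) * b) := by rw [ih]; group
      _ = b ^ j * (a ^ i * b) * c ^ (i * j) := by rw [(hcb.pow_left (i * j)).eq]; group
      _ = b ^ j * b * a ^ i * (c ^ i * c ^ (i * j)) := by rw [pow_swap h hca hcb]; group
      _ = b ^ (j + 1) * a ^ i * c ^ (i * (j + 1)) := by
          rw [← pow_add, pow_succ, show i + i * j = i * (j + 1) by ring]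

theorem mul_pow_tri (h : a * b = b * a * c) (hca : Commute c a) (hcb : Commute c b) (i : ℕ) :
    (a * b) ^ i * c ^ i.choose 2 = a ^ i * b ^ i := by
  induction i with
  | zero => simp
  | succ i ih =>
    rw [tri_succ, pow_add c]
    calc (a * b) ^ (i + 1) * (c ^ i * c ^ i.choose 2)
        = (a * b) ^ i * (a * b * c ^ i.choose 2) * c ^ i := by
          rw [pow_succ, ← (Commute.pow_pow_self c (i.choose 2) i).eq]; group
      _ = (a * b) ^ i * c ^ i.choose 2 * a * (b * c ^ i) := by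
          rw [← ((hca.mul_right hcb).pow_left (i.choose 2)).eq]; group
      _ = a ^ i * b ^ i * a * (c ^ i * b) := by rw [ih, (hcb.pow_left i).eq]
      _ = a ^ i * (b ^ i * a * c ^ i) * b := by group
      _ = a ^ i * (a * b ^ i) * b := by
          have := pow_swap_pow h hca hcb 1 i
          rw [pow_one, one_mul] at this
          rw [this]
      _ = a ^ (i + 1) * b ^ (i + 1) := by rw [pow_succ, pow_succ]; group

end Group

variable {A V : Type} [Group A] [Finite A] [AddCommGroup V] [Finite V] [DistribMulAction A V]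
  [Nontrivial V] (φ : Frame A V)

/-- The elements of `F` fixing the line through `v`. -/
def lineStab (v : V) : Subgroup A where
  carrier := {n | n ∈ φ.F ∧ ∃ r : φ.K, n • v = r • v}
  one_mem' := ⟨one_mem _, 1, by rw [one_smul, one_smul]⟩
  mul_mem' := fun {a b} ⟨ha, r, hr⟩ ⟨hb, s, hs⟩ => ⟨mul_mem ha hb, s * r, by
    rw [mul_smul, hs, mul_smul, ← hr]
    exact DFunLike.congr_fun (φ.commute_K (φ.F_le ha) s.2) v⟩
  inv_mem' := fun {a} ⟨ha, r, hr⟩ => by
    have hp : ∀ j : ℕ, a ^ j • v = r ^ j • v := fun j => by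
      induction j with
      | zero => simp
      | succ j ih =>
        rw [pow_succ, mul_smul, hr, pow_succ', mul_smul r, ← ih]
        exact DFunLike.congr_fun (φ.commute_K (φ.F_le (pow_mem ha j)) r.2) v
    refine ⟨inv_mem ha, r ^ (orderOf a - 1), ?_⟩
    rw [← hp, inv_eq_of_mul_eq_one_right]
    rw [← pow_succ', Nat.sub_add_cancel (orderOf_pos a), pow_orderOf_eq_one]

theorem mem_lineStab {v : V} {n : A} : n ∈ lineStab φ v ↔ n ∈ φ.F ∧ ∃ r : φ.K, n • v = r • v :=
  Iff.rfl

theorem C_smul {c : A} (hc : c ∈ φ.C) (y : V) :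
    c • y = (⟨endHom A V c, endHom_mem_ringOf hc⟩ : φ.K) • y := rfl

theorem C_le_lineStab (v : V) : φ.C ≤ lineStab φ v := fun _ hc => ⟨φ.C_le hc, _, C_smul φ hc v⟩

theorem smul_ring_comm {n : A} (hn : n ∈ φ.L) (r : φ.K) (y : V) : n • r • y = r • n • y :=
  DFunLike.congr_fun (φ.commute_K hn r.2) y

/-- The centraliser in `F` of the line stabiliser. -/
def blockStab (v : V) : Subgroup A := φ.F ⊓ Subgroup.centralizer (lineStab φ v : Set A)

/-- The eigenvectors with the eigenvalues of `v`. -/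
def InBlock (v y : V) : Prop := ∀ e ∈ lineStab φ v, ∀ r : φ.K, e • v = r • v → e • y = r • y

/-- The eigenspace as a subspace. -/
noncomputable def block (v : V) : Submodule φ.K V where
  carrier := {y | InBlock φ v y}
  zero_mem' := fun e _ r _ => by rw [smul_zero, smul_zero]
  add_mem' := fun {a b} ha hb e he r hr => by rw [smul_add, ha e he r hr, hb e he r hr, smul_add]
  smul_mem' := fun k y hy e he r hr => by
    rw [smul_ring_comm φ (φ.F_le he.1), hy e he r hr, smul_comm]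

variable {φ}

theorem inBlock_self (v : V) : InBlock φ v v := fun _ _ _ h => h

theorem InBlock.smul_blockStab {v y : V} (hy : InBlock φ v y) {n : A} (hn : n ∈ blockStab φ v) :
    InBlock φ v (n • y) := fun e he r hr => by
  rw [← mul_smul, Subgroup.mem_centralizer_iff.1 hn.2 e he, mul_smul, hy e he r hr,
    smul_ring_comm φ (φ.F_le hn.1)]

theorem InBlock.le {v y : V} (hy : InBlock φ v y) : lineStab φ v ≤ lineStab φ y := fun e he => by
  obtain ⟨r, hr⟩ := he.2
  exact ⟨he.1, r, hy e he r hr⟩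

variable (φ)

/-- The line stabiliser is as large as possible. -/
def IsBigLine (v : V) : Prop :=
  v ≠ 0 ∧ ∀ y : V, y ≠ 0 → Nat.card (lineStab φ y) ≤ Nat.card (lineStab φ v)

variable {φ}

theorem IsBigLine.eq {v y : V} (hv : IsBigLine φ v) (hy : InBlock φ v y) (hy0 : y ≠ 0) :
    lineStab φ v = lineStab φ y := Subgroup.eq_of_le_of_card_ge hy.le (hv.2 y hy0)

variable [FaithfulSMul A V]

theorem comm_of_mem_lineStab {v : V} (hv : v ≠ 0) {a b : A} (ha : a ∈ lineStab φ v)
    (hb : b ∈ lineStab φ v) : a * b = b * a := by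
  obtain ⟨haF, r, hr⟩ := ha
  obtain ⟨hbF, s, hs⟩ := hb
  have h1 : (a * b) • v = (b * a) • v := by
    rw [mul_smul, hs, smul_ring_comm φ (φ.F_le haF), hr, mul_smul, hr, smul_ring_comm φ (φ.F_le hbF),
      hs, smul_comm]
  refine commutatorElement_eq_one_iff_mul_comm.1 ?_
  by_contra hne
  refine hv (φ.eq_zero_of_fixed (φ.comm_mem a haF b hbF) hne ?_)
  have h2 : ⁅a, b⁆ • (b * a) • v = (a * b) • v := by
    rw [← mul_smul, commutatorElement_def]; congr 1; group
  rw [← h1] at h2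
  have hab : a • b • v = (r * s) • v := by
    rw [hs, smul_ring_comm φ (φ.F_le haF), hr, ← mul_smul, φ.K_comm]
  rw [mul_smul, hab, smul_ring_comm φ (φ.C_le_L (φ.comm_mem a haF b hbF))] at h2
  have hrs : r * s ≠ 0 := by
    intro h0
    rw [h0, zero_smul] at hab
    exact hv (by rwa [smul_eq_zero_iff_eq, smul_eq_zero_iff_eq] at hab)
  exact smul_right_injective V hrs h2

theorem lineStab_le_blockStab {v : V} (hv : v ≠ 0) : lineStab φ v ≤ blockStab φ v := fun _ he =>
  ⟨he.1, Subgroup.mem_centralizer_iff.2 fun _ hf => comm_of_mem_lineStab hv hf he⟩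

/-- The eigenvalue of an element of `C`. -/
theorem unit_smul {c : A} (hc : c ∈ φ.C) (y : V) :
    c • y = ((φ.unitHom ⟨c, hc⟩ : φ.Kˣ) : φ.K) • y := rfl

variable [Group.IsSolvable A]

theorem mem_lineStab_of_centralizes {v : V} (hv : v ≠ 0) {n : A} (hn : n ∈ φ.F)
    (h : ∀ m ∈ blockStab φ v, n * m = m * n) : n ∈ lineStab φ v := by
  set E0 := lineStab φ v
  set E1 := blockStab φ v with hE1
  set E2 := φ.F ⊓ Subgroup.centralizer (E1 : Set A) with hE2
  have h02 : E0 ≤ E2 := fun e he => ⟨he.1, Subgroup.mem_centralizer_iff.2 fun m hm =>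
    (Subgroup.mem_centralizer_iff.1 hm.2 e he).symm⟩
  have hCE1 : φ.C ≤ E1 := (C_le_lineStab φ v).trans (lineStab_le_blockStab hv)
  have h1 := φ.relIndex_centralizer_eq (M := E1) (N := φ.F) (inf_le_left.trans φ.F_le) φ.F_le
    fun x hx y hy => φ.comm_mem x hx.1 y hy
  have h0 := φ.relIndex_centralizer_eq (M := E0) (N := φ.F) (fun x hx => φ.F_le hx.1) φ.F_le
    fun x hx y hy => φ.comm_mem x hx.1 y hy
  rw [φ.centralizer_F, ← Subgroup.inf_relIndex_right (Subgroup.centralizer (E1 : Set A)) φ.F,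
    inf_comm, ← hE2] at h1
  rw [φ.centralizer_F, ← Subgroup.inf_relIndex_right (Subgroup.centralizer (E0 : Set A)) φ.F,
    inf_comm] at h0
  change _ = E1.relIndex φ.F at h0
  have e1 := Subgroup.relIndex_mul_relIndex _ _ _ hCE1 (inf_le_left : E1 ≤ φ.F)
  have e2 := Subgroup.relIndex_mul_relIndex _ _ _ ((C_le_lineStab φ v).trans h02) (inf_le_left : E2 ≤ φ.F)
  have e3 := Subgroup.relIndex_mul_relIndex _ _ _ (C_le_lineStab φ v) h02
  rw [← h1, ← e1, ← h0, ← e3, mul_comm (φ.C.relIndex E1)] at e2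
  have h4 : E0.relIndex E2 = 1 := by
    have hp1 : φ.C.relIndex E1 ≠ 0 := Subgroup.index_ne_zero_of_finite
    have hp0 : φ.C.relIndex E0 ≠ 0 := Subgroup.index_ne_zero_of_finite
    exact mul_left_cancel₀ hp0 ((mul_right_cancel₀ hp1 e2).trans (mul_one _).symm)
  exact Subgroup.relIndex_eq_one.1 h4 ⟨hn, Subgroup.mem_centralizer_iff.2 fun m hm => (h m hm).symm⟩

/-- `F / C` has square-free exponent. -/
theorem pow_mem_of_pow_sq_mem {n : A} (hn : n ∈ φ.F) {r : ℕ} (h : n ^ (r * r) ∈ φ.C) : n ^ r ∈ φ.C := by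
  set s : Set A := {y | ∃ x ∈ φ.F, x ^ (r * r) ∈ φ.C ∧ x ^ r = y} ∪ φ.C with hs
  have hsF : ∀ y ∈ s, y ∈ φ.F := by
    rintro y (⟨x, hx, -, rfl⟩ | hy)
    · exact pow_mem hx r
    · exact φ.C_le hy
  have hcomm : ∀ a ∈ s, ∀ b ∈ s, a * b = b * a := by
    rintro a (⟨x, hx, hx2, rfl⟩ | ha) b hb
    · rcases hb with ⟨y, hy, -, rfl⟩ | hb
      · set c := x⁻¹ * y⁻¹ * x * y with hc
        have hcC : c ∈ φ.C := by
          have := φ.comm_mem _ (inv_mem hx) _ (inv_mem hy)
          rwa [commutatorElement_def, inv_inv, inv_inv, ← hc] at this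
        have hxy : x * y = y * x * c := by rw [hc]; group
        have hcx : Commute c x := φ.comm_C_L hcC (φ.F_le hx)
        have hcy : Commute c y := φ.comm_C_L hcC (φ.F_le hy)
        rw [pow_swap_pow hxy hcx hcy]
        have h1 := pow_swap hxy hcx hcy (r * r)
        rw [φ.comm_C_L hx2 (φ.F_le hy), left_eq_mul] at h1
        rw [h1, mul_one]
      · exact (φ.comm_C_L hb (φ.F_le (pow_mem hx r))).symm
    · exact φ.comm_C_L ha (φ.F_le (hsF b hb))
  haveI : (Subgroup.closure s).Normal := ⟨fun y hy g => by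
    have hle : Subgroup.closure s ≤ (Subgroup.closure s).comap (MulAut.conj g).toMonoidHom := by
      refine (Subgroup.closure_le _).2 ?_
      rintro z (⟨x, hx, hx2, rfl⟩ | hz)
      · refine Subgroup.subset_closure (Or.inl ⟨g * x * g⁻¹, φ.F_normal.conj_mem x hx g, ?_, ?_⟩)
        · rw [conj_pow]; exact φ.C_normal.conj_mem _ hx2 g
        · simp [conj_pow]
      · exact Subgroup.subset_closure (Or.inr (φ.C_normal.conj_mem z hz g))
    exact hle hy⟩
  have hab := Subgroup.isMulCommutative_closure (k := s) hcomm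
  have heq := φ.C_max (Subgroup.closure s) inferInstance
    (fun x hx y hy => congrArg Subtype.val (hab.is_comm.comm (⟨x, hx⟩ : Subgroup.closure s) ⟨y, hy⟩))
    (fun c hc => Subgroup.subset_closure (Or.inr hc))
  rw [← heq]
  exact Subgroup.subset_closure (Or.inl ⟨n, hn, h, rfl⟩)

/-- A partner for an element of prime order modulo the line stabiliser. -/
theorem exists_partner {v : V} (hv : v ≠ 0) {n : A} (hn : n ∈ blockStab φ v) (hn0 : n ∉ lineStab φ v)
    {r : ℕ} (hr : r.Prime) (hnr : n ^ r ∈ lineStab φ v) :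
    ∃ m ∈ blockStab φ v, ∃ c ∈ φ.C, m ^ r ∈ φ.C ∧ n * m = m * n * c ∧ orderOf c = r := by
  haveI := Fact.mk hr
  obtain ⟨x, hx, hnx⟩ : ∃ x ∈ blockStab φ v, n * x ≠ x * n := by
    by_contra! h
    exact hn0 (mem_lineStab_of_centralizes hv hn.1 h)
  set c := n⁻¹ * x⁻¹ * n * x with hc
  have hcC : c ∈ φ.C := by
    have := φ.comm_mem _ (inv_mem hn.1) _ (inv_mem hx.1)
    rwa [commutatorElement_def, inv_inv, inv_inv, ← hc] at this
  have hnx' : n * x = x * n * c := by rw [hc]; group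
  have hcn : Commute c n := φ.comm_C_L hcC (φ.F_le hn.1)
  have hcx : Commute c x := φ.comm_C_L hcC (φ.F_le hx.1)
  have hc1 : c ≠ 1 := fun h => hnx (by rw [hnx', h, mul_one])
  have hcr : orderOf c = r := orderOf_eq_prime (by
    have h1 := pow_swap hnx' hcn hcx r
    rw [Subgroup.mem_centralizer_iff.1 hx.2 _ hnr, left_eq_mul] at h1
    exact h1) hc1
  set o := orderOf (x : A ⧸ φ.C) with ho
  have hxo : x ^ o ∈ φ.C := by
    rw [← QuotientGroup.eq_one_iff, QuotientGroup.mk_pow]; exact pow_orderOf_eq_one _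
  have hro : r ∣ o := by
    rw [← hcr]
    refine orderOf_dvd_of_pow_eq_one ?_
    have h1 := pow_swap_pow hnx' hcn hcx 1 o
    rw [pow_one, one_mul, ← φ.comm_C_L hxo (φ.F_le hn.1), left_eq_mul] at h1
    exact h1
  obtain ⟨t, ht⟩ := hro
  have ho0 : 0 < o := orderOf_pos _
  refine ⟨x ^ t, pow_mem hx t, c ^ t, pow_mem hcC t, ?_, ?_, ?_⟩
  · rw [← pow_mul, mul_comm, ← ht]; exact hxo
  · have h1 := pow_swap_pow hnx' hcn hcx 1 t
    rwa [pow_one, one_mul] at h1
  · rw [Nat.Coprime.orderOf_pow (y := c) (m := t)]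
    · exact hcr
    rw [hcr, hr.coprime_iff_not_dvd]
    rintro ⟨t', rfl⟩
    have h2 : (x ^ t') ^ r ∈ φ.C := pow_mem_of_pow_sq_mem (pow_mem hx.1 t') (by
      rw [← pow_mul, show t' * (r * r) = o by rw [ht]; ring]; exact hxo)
    rw [← pow_mul, ← QuotientGroup.eq_one_iff, QuotientGroup.mk_pow] at h2
    have h3 := Nat.le_of_dvd (Nat.pos_of_ne_zero fun h0 => by
      rw [mul_comm r t', h0, mul_zero] at ht; omega) (orderOf_dvd_of_pow_eq_one h2)
    rw [← ho, mul_comm t' r] at h3
    have := hr.two_le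
    rw [ht] at h3 ho0
    nlinarith

/-- The scalar of the `r`-th power is not an `r`-th power. -/
theorem not_pow_scalar {v : V} (hv : IsBigLine φ v) {n : A} (hn : n ∈ blockStab φ v)
    (hn0 : n ∉ lineStab φ v) {r : ℕ} (hr : r.Prime) (hnr : n ^ r ∈ lineStab φ v) (s : φ.K) :
    n ^ r • v ≠ s ^ r • v := by
  intro hs
  obtain ⟨m, hm, c, hcC, -, hnm, hcr⟩ := exists_partner hv.1 hn hn0 hr hnr
  have hζ : IsPrimitiveRoot ((φ.unitHom ⟨c, hcC⟩ : φ.Kˣ) : φ.K) r := by
    rw [IsPrimitiveRoot.coe_units_iff]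
    have h := IsPrimitiveRoot.orderOf (φ.unitHom ⟨c, hcC⟩)
    rwa [orderOf_injective _ φ.unitHom_injective, ← Subgroup.orderOf_coe, hcr] at h
  let T := φ.linRep ⟨n, φ.F_le hn.1⟩
  let S := φ.linRep ⟨m, φ.F_le hm.1⟩
  have hs0 : s ≠ 0 := by
    rintro rfl
    rw [zero_pow hr.ne_zero, zero_smul] at hs
    exact hv.1 (by rwa [smul_eq_zero_iff_eq] at hs)
  obtain ⟨y, hy, hy0, hyT⟩ := exists_eigen hr.one_lt hζ T S (block φ v) (MulAction.injective m)
    (fun y hy => InBlock.smul_blockStab hy hm) (fun y hy => InBlock.smul_blockStab hy hn)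
    (fun y => by
      show n • m • y = _ • m • n • y
      rw [← mul_smul, hnm, mul_smul, mul_smul, unit_smul hcC, smul_ring_comm φ (φ.F_le hn.1),
        smul_ring_comm φ (φ.F_le hm.1)])
    hs0 (fun y hy => by
      have hp : ∀ j : ℕ, ∀ z : V, (T ^ j) z = n ^ j • z := fun j => by
        induction j with
        | zero => intro z; simp
        | succ j ih => intro z; rw [pow_succ', Module.End.mul_apply, ih, pow_succ', mul_smul]; rfl
      rw [hp]; exact hy _ hnr _ hs) (inBlock_self v) hv.1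
  have hmem : n ∈ lineStab φ y := ⟨hn.1, s, hyT⟩
  rw [← hv.eq hy hy0] at hmem
  exact hn0 hmem

theorem exists_generator : ∃ g : φ.Kˣ, ∀ x : φ.Kˣ, ∃ i : ℕ, g ^ i = x := by
  obtain ⟨g, hg⟩ := IsCyclic.exists_generator (α := φ.Kˣ)
  exact ⟨g, fun x => mem_powers_iff_mem_zpowers.2 (hg x)⟩

theorem exists_scalar_unit {v : V} (hv : v ≠ 0) {e : A} (he : e ∈ lineStab φ v) :
    ∃ a : φ.Kˣ, e • v = (a : φ.K) • v := by
  obtain ⟨-, r, hr⟩ := he
  refine ⟨Units.mk0 r ?_, hr⟩
  rintro rfl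
  rw [zero_smul] at hr
  exact hv (by rwa [smul_eq_zero_iff_eq] at hr)

/-- Only the prime two occurs. -/
theorem eq_two {v : V} (hv : IsBigLine φ v) {n : A} (hn : n ∈ blockStab φ v)
    (hn0 : n ∉ lineStab φ v) {r : ℕ} (hr : r.Prime) (hnr : n ^ r ∈ lineStab φ v) : r = 2 := by
  by_contra hr2
  haveI := Fact.mk hr
  obtain ⟨m, hm, c, hcC, hmr, hnm, hcr⟩ := exists_partner hv.1 hn hn0 hr hnr
  obtain ⟨g, hg⟩ := exists_generator (φ := φ)
  obtain ⟨a, ha⟩ := exists_scalar_unit hv.1 hnr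
  obtain ⟨b, hb⟩ := exists_scalar_unit hv.1 (C_le_lineStab φ v hmr)
  obtain ⟨i, rfl⟩ := hg a
  obtain ⟨j, rfl⟩ := hg b
  have hi : ¬ r ∣ i := by
    rintro ⟨t, rfl⟩
    exact not_pow_scalar hv hn hn0 hr hnr ((g : φ.K) ^ t)
      (by rw [ha, ← pow_mul, mul_comm t, Units.val_pow_eq_pow_val])
  set k := ((-(j : ZMod r)) * (i : ZMod r)⁻¹).val with hk
  have hdiv : r ∣ i * k + j := by
    rw [← ZMod.natCast_eq_zero_iff]
    push_cast
    rw [hk, ZMod.natCast_zmod_val, mul_comm (-(j : ZMod r)), ← mul_assoc,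
      mul_inv_cancel₀ (by rwa [Ne, ZMod.natCast_eq_zero_iff]), one_mul, neg_add_cancel]
  obtain ⟨t, ht⟩ := hdiv
  have hcn : Commute c n := φ.comm_C_L hcC (φ.F_le hn.1)
  have hcm : Commute c m := φ.comm_C_L hcC (φ.F_le hm.1)
  have hkm : n ^ k * m = m * n ^ k * c ^ k := pow_swap hnm hcn hcm k
  have hpow : (n ^ k * m) ^ r = (n ^ r) ^ k * m ^ r := by
    have h1 := mul_pow_tri hkm ((hcn.pow_right k).pow_left k) (hcm.pow_left k) r
    have h2 : (c ^ k) ^ r.choose 2 = 1 := by
      rw [← pow_mul, ← orderOf_dvd_iff_pow_eq_one, hcr]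
      exact Dvd.dvd.mul_left (hr.dvd_choose_self (by norm_num) (by have := hr.two_le; omega)) k
    rw [h2, mul_one] at h1
    rw [h1, ← pow_mul, ← pow_mul, mul_comm]
  have hmem : n ^ k * m ∈ blockStab φ v := mul_mem (pow_mem hn k) hm
  have hpow0 : (n ^ k * m) ^ r ∈ lineStab φ v := hpow ▸ mul_mem (pow_mem hnr k) (C_le_lineStab φ v hmr)
  refine not_pow_scalar hv hmem (fun h0 => ?_) hr hpow0 ((g : φ.K) ^ t) ?_
  · have h1 : n * (n ^ k * m) = n ^ k * m * n := (Subgroup.mem_centralizer_iff.1 hn.2 _ h0).symm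
    rw [← mul_assoc, ← pow_succ', pow_succ, mul_assoc, mul_assoc, mul_right_inj, hnm, mul_eq_left] at h1
    rw [h1, orderOf_one] at hcr
    exact hr.one_lt.ne hcr
  · have hpk : ∀ l : ℕ, (n ^ r) ^ l • v = ((g : φ.K) ^ i) ^ l • v := fun l => by
      induction l with
      | zero => simp
      | succ l ih =>
        rw [pow_succ', mul_smul, ih, smul_ring_comm φ (φ.F_le hnr.1), ha, Units.val_pow_eq_pow_val,
          pow_succ, mul_smul]
    rw [hpow, mul_smul, hb, smul_ring_comm φ (φ.F_le (pow_mem hnr k).1), hpk, Units.val_pow_eq_pow_val,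
      ← mul_smul, ← pow_mul, ← pow_add, ← pow_mul, add_comm, ht, mul_comm t]

theorem sq_mem_lineStab {v : V} (hv : IsBigLine φ v) {n : A} (hn : n ∈ blockStab φ v) :
    n ^ 2 ∈ lineStab φ v := by
  have key : ∀ k : ℕ, 0 < k → (∀ r : ℕ, r.Prime → ¬ r * r ∣ k) → n ^ k ∈ lineStab φ v →
      n ^ 2 ∈ lineStab φ v := by
    intro k
    induction k using Nat.strong_induction_on with
    | _ k ih =>
    intro hk0 hsq hk
    by_cases hodd : ∃ r : ℕ, r.Prime ∧ r ≠ 2 ∧ r ∣ k
    · obtain ⟨r, hr, hr2, t, rfl⟩ := hodd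
      have ht0 : 0 < t := pos_of_mul_pos_right hk0 (Nat.zero_le r)
      refine ih t (lt_mul_of_one_lt_left ht0 hr.one_lt) ht0
        (fun s hs hd => hsq s hs (hd.mul_left r)) ?_
      by_contra hnt
      exact hr2 (eq_two hv (pow_mem hn t) hnt hr (by rwa [← pow_mul, mul_comm]))
    push Not at hodd
    rcases Nat.lt_or_ge k 3 with hlt | hge
    · interval_cases k
      · rw [pow_one] at hk; exact pow_mem hk 2
      · exact hk
    exfalso
    refine hsq 2 Nat.prime_two ?_
    obtain ⟨r, hr, hrk⟩ := Nat.exists_prime_and_dvd (by omega : k ≠ 1)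
    obtain rfl : r = 2 := by_contra fun h => hodd r hr h hrk
    obtain ⟨t, rfl⟩ := hrk
    obtain ⟨l, hl, hlt⟩ := Nat.exists_prime_and_dvd (by omega : t ≠ 1)
    obtain rfl : l = 2 := by_contra fun h => hodd l hl h (hlt.mul_left 2)
    exact Nat.mul_dvd_mul_left 2 hlt
  set o := orderOf (n : A ⧸ φ.C) with ho
  have hno : n ^ o ∈ φ.C := by
    rw [← QuotientGroup.eq_one_iff, QuotientGroup.mk_pow]; exact pow_orderOf_eq_one _
  refine key o (orderOf_pos _) (fun r hr hd => ?_) (C_le_lineStab φ v hno)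
  obtain ⟨t, ht⟩ := hd
  have h2 : (n ^ t) ^ r ∈ φ.C := pow_mem_of_pow_sq_mem (pow_mem hn.1 t) (by
    rw [← pow_mul, mul_comm, ← ht]; exact hno)
  rw [← pow_mul, ← QuotientGroup.eq_one_iff, QuotientGroup.mk_pow] at h2
  have ho0 : 0 < o := orderOf_pos _
  rw [ht] at ho0
  have htpos : 0 < t := pos_of_mul_pos_right ho0 (Nat.zero_le _)
  have h3 := Nat.le_of_dvd (Nat.mul_pos htpos hr.pos) (orderOf_dvd_of_pow_eq_one h2)
  rw [← ho, ht] at h3
  have := hr.two_le
  nlinarith

/-- The element `q`. -/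
theorem exists_base : ∃ (v : V) (q : A), IsBigLine φ v ∧ q ∈ blockStab φ v ∧
    ∀ n ∈ blockStab φ v, ∃ a b : φ.K, n • v = a • v + b • q • v := by
  obtain ⟨v, hv0, hvmax⟩ := Set.Finite.exists_maximalFor (fun y => Nat.card (lineStab φ y))
    {y : V | y ≠ 0} (Set.toFinite _) (exists_ne 0)
  have hv : IsBigLine φ v := ⟨hv0, fun y hy => by
    by_contra h; push Not at h; have h' : Nat.card (lineStab φ y) ≤ Nat.card (lineStab φ v) := hvmax hy h.le; omega⟩
  by_cases hall : ∀ n ∈ blockStab φ v, n ∈ lineStab φ v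
  · refine ⟨v, 1, hv, one_mem _, fun n hn => ?_⟩
    obtain ⟨-, r, hr⟩ := hall n hn
    exact ⟨r, 0, by rw [hr, zero_smul, add_zero]⟩
  push Not at hall
  obtain ⟨q, hq, hq0⟩ := hall
  have hq2 := sq_mem_lineStab hv hq
  obtain ⟨m, hm, c, hcC, hm2, hqm, hc2⟩ := exists_partner hv.1 hq hq0 Nat.prime_two hq2
  have hm0 : m ∉ lineStab φ v := fun h => by
    have h1 := Subgroup.mem_centralizer_iff.1 hq.2 m h
    rw [h1, left_eq_mul] at hqm
    rw [hqm, orderOf_one] at hc2
    omega
  -- the commutator is `-1`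
  have hcneg : ((φ.unitHom ⟨c, hcC⟩ : φ.Kˣ) : φ.K) = -1 := by
    refine IsPrimitiveRoot.eq_neg_one_of_two_right ?_
    rw [IsPrimitiveRoot.coe_units_iff]
    have h := IsPrimitiveRoot.orderOf (φ.unitHom ⟨c, hcC⟩)
    rwa [orderOf_injective _ φ.unitHom_injective, ← Subgroup.orderOf_coe, hc2] at h
  obtain ⟨a, ha⟩ := exists_scalar_unit hv.1 hq2
  obtain ⟨b, hb⟩ := exists_scalar_unit hv.1 (C_le_lineStab φ v hm2)
  have hnsq : ∀ n ∈ blockStab φ v, n ∉ lineStab φ v → ∀ a : φ.K, n ^ 2 • v = a • v → ¬ IsSquare a := by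
    rintro n hn hn0 _ ha ⟨s, rfl⟩
    exact not_pow_scalar hv hn hn0 Nat.prime_two (sq_mem_lineStab hv hn) s (by rw [ha, pow_two s])
  have ha' := hnsq q hq hq0 _ ha
  have hb' := hnsq m hm hm0 _ hb
  -- commuting elements outside the line stabiliser agree modulo it
  have hcoset : ∀ n ∈ blockStab φ v, Commute q n → n ∈ lineStab φ v ∨ q⁻¹ * n ∈ lineStab φ v := by
    intro n hn hcn
    refine or_iff_not_imp_left.2 fun hn0 => ?_
    by_contra hne
    have hqn : q * n ∈ blockStab φ v := mul_mem hq hn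
    have hqn0 : q * n ∉ lineStab φ v := fun h => hne (by
      rw [show q⁻¹ * n = (q ^ 2)⁻¹ * (q * n) by rw [pow_two]; group]
      exact mul_mem (inv_mem hq2) h)
    obtain ⟨d, hd⟩ := exists_scalar_unit hv.1 (sq_mem_lineStab hv hn)
    obtain ⟨g, hg⟩ := exists_generator (φ := φ)
    obtain ⟨i, rfl⟩ := hg a
    obtain ⟨j, rfl⟩ := hg d
    refine hnsq _ hqn hqn0 ((g : φ.K) ^ (i + j)) ?_ ?_
    · rw [hcn.mul_pow, mul_smul, hd, smul_ring_comm φ (φ.F_le hq2.1), ha, ← mul_smul,
        Units.val_pow_eq_pow_val, Units.val_pow_eq_pow_val, ← pow_add, add_comm]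
    · have hi : Odd i := by
        rw [← Nat.not_even_iff_odd]
        rintro ⟨t, rfl⟩
        exact ha' ⟨(g : φ.K) ^ t, by rw [Units.val_pow_eq_pow_val, pow_add]⟩
      have hj : Odd j := by
        rw [← Nat.not_even_iff_odd]
        rintro ⟨t, rfl⟩
        exact hnsq n hn hn0 _ hd ⟨(g : φ.K) ^ t, by rw [Units.val_pow_eq_pow_val, pow_add]⟩
      obtain ⟨t, ht⟩ := hi.add_odd hj
      exact ⟨(g : φ.K) ^ t, by rw [ht, pow_add]⟩
  -- the quadratic form takes the value one
  have hchar : ringChar φ.K ≠ 2 := by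
    intro h2
    haveI := ringChar.of_eq h2
    have h1 : φ.unitHom ⟨c, hcC⟩ = φ.unitHom 1 := Units.ext (by
      rw [hcneg, CharTwo.neg_eq, map_one, Units.val_one])
    have h3 : c = 1 := congrArg Subtype.val (φ.unitHom_injective h1)
    rw [h3, orderOf_one] at hc2
    omega
  obtain ⟨x, z, hxz⟩ : ∃ x z : φ.K, (a : φ.K) * x ^ 2 + (b : φ.K) * z ^ 2 = 1 := by
    classical
    letI := Fintype.ofFinite φ.K
    open Polynomial in
    obtain ⟨x, z, h⟩ := FiniteField.exists_root_sum_quadratic (R := φ.K)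
      (f := C (a : φ.K) * X ^ 2) (g := C (b : φ.K) * X ^ 2 - C 1)
      (by rw [degree_C_mul_X_pow 2 a.ne_zero]; rfl)
      (by rw [degree_sub_C (by rw [degree_C_mul_X_pow 2 b.ne_zero]; decide),
        degree_C_mul_X_pow 2 b.ne_zero]; rfl)
      (FiniteField.odd_card_of_char_ne_two hchar)
    refine ⟨x, z, sub_eq_zero.1 ?_⟩
    rw [← h]
    simp only [Polynomial.eval_mul, Polynomial.eval_C, Polynomial.eval_pow, Polynomial.eval_X,
      Polynomial.eval_sub]
    ring
  have hz : z ≠ 0 := by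
    rintro rfl
    rw [zero_pow two_ne_zero, mul_zero, add_zero] at hxz
    refine ha' ⟨x⁻¹, ?_⟩
    have hx : x ≠ 0 := by rintro rfl; simp at hxz
    field_simp
    linear_combination hxz
  -- an eigenvector of the combination
  let R : V → V := fun y => x • q • y + z • m • y
  have hsq : ∀ (n : A) (w : φ.K), n ^ 2 ∈ lineStab φ v → n ^ 2 • v = w • v →
      ∀ y, InBlock φ v y → n • n • y = w • y := fun n w hn2 hw y hy => by
    rw [← mul_smul, ← pow_two]; exact hy _ hn2 _ hw
  have hanti : ∀ y : V, q • m • y = -(m • q • y) := fun y => by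
    rw [← mul_smul, hqm, mul_smul, mul_smul, unit_smul hcC, hcneg, neg_smul, one_smul, smul_neg, smul_neg]
  have hRR : ∀ y, InBlock φ v y → R (R y) = y := by
    intro y hy
    show x • q • (x • q • y + z • m • y) + z • m • (x • q • y + z • m • y) = y
    rw [smul_add q, smul_add m, smul_ring_comm φ (φ.F_le hq.1), smul_ring_comm φ (φ.F_le hq.1),
      smul_ring_comm φ (φ.F_le hm.1), smul_ring_comm φ (φ.F_le hm.1), hsq q _ hq2 ha y hy,
      hsq m _ (C_le_lineStab φ v hm2) hb y hy, hanti y]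
    calc x • (x • (a : φ.K) • y + z • -(m • q • y)) + z • (x • m • q • y + z • (b : φ.K) • y)
        = ((a : φ.K) * x ^ 2 + (b : φ.K) * z ^ 2) • y := by generalize m • q • y = w; module
      _ = y := by rw [hxz, one_smul]
  obtain ⟨y, hy, hy0, ε, hε⟩ : ∃ y, InBlock φ v y ∧ y ≠ 0 ∧ ∃ ε : φ.K, R y = ε • y := by
    by_cases h0 : v + R v = 0
    · exact ⟨v, inBlock_self v, hv.1, -1, by rw [neg_one_smul]; exact eq_neg_of_add_eq_zero_right h0⟩
    refine ⟨v + R v, ?_, h0, 1, ?_⟩
    · exact (block φ v).add_mem (inBlock_self v) ((block φ v).add_mem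
        ((block φ v).smul_mem x (InBlock.smul_blockStab (inBlock_self v) hq))
        ((block φ v).smul_mem z (InBlock.smul_blockStab (inBlock_self v) hm)))
    · rw [one_smul]
      have hadd : R (v + R v) = R v + R (R v) := by
        show x • q • (v + R v) + z • m • (v + R v) = _
        simp only [R, smul_add]; abel
      rw [hadd, hRR v (inBlock_self v), add_comm]
  have heq := hv.eq hy hy0
  have hbs : blockStab φ y = blockStab φ v := by rw [blockStab, blockStab, heq]
  refine ⟨y, q, ⟨hy0, fun w hw => heq ▸ hv.2 w hw⟩, hbs ▸ hq, ?_⟩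
  rw [hbs]
  let Sp : V → Prop := fun w => ∃ α β : φ.K, w = α • y + β • q • y
  have hqSp : ∀ w, Sp w → Sp (q • w) := by
    rintro _ ⟨α, β, rfl⟩
    refine ⟨β * (a : φ.K), α, ?_⟩
    rw [smul_add, smul_ring_comm φ (φ.F_le hq.1), smul_ring_comm φ (φ.F_le hq.1),
      hsq q _ hq2 ha y hy, mul_smul, add_comm]
  have hmy : Sp (m • y) := by
    refine ⟨z⁻¹ * ε, -(z⁻¹ * x), ?_⟩
    have h1 : z • m • y = ε • y - x • q • y := by
      rw [eq_sub_iff_add_eq, add_comm]; exact hε
    calc m • y = z⁻¹ • z • m • y := by rw [smul_smul, inv_mul_cancel₀ hz, one_smul]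
      _ = _ := by rw [h1]; generalize q • y = w; module
  have hscal : ∀ e ∈ lineStab φ v, ∃ r : φ.K, ∀ w : V, InBlock φ v w → e • w = r • w := by
    intro e he
    obtain ⟨r, hr⟩ := he.2
    exact ⟨r, fun w hw => hw e he r hr⟩
  have hline : ∀ e ∈ lineStab φ v, ∀ u ∈ blockStab φ v, Sp (u • y) → Sp (e • u • y) := by
    intro e he u hu hsp
    obtain ⟨r, hr⟩ := hscal e he
    obtain ⟨α, β, hαβ⟩ := hsp
    exact ⟨r * α, r * β, by rw [hr _ (hy.smul_blockStab hu), hαβ, smul_add, mul_smul, mul_smul]⟩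
  intro n hn
  show Sp (n • y)
  have hy1 : Sp ((1 : A) • y) := ⟨1, 0, by simp⟩
  have hq1 : Sp (q • y) := ⟨0, 1, by simp⟩
  -- every element is a product
  have hcase : ∀ k ∈ blockStab φ v, Commute q k → ∃ e ∈ lineStab φ v, k = e ∨ k = e * q := by
    intro k hk hck
    rcases hcoset k hk hck with h | h
    · exact ⟨k, h, Or.inl rfl⟩
    · refine ⟨q⁻¹ * k, h, Or.inr ?_⟩
      rw [mul_assoc, ← hck.eq, inv_mul_cancel_left]
  set d := q⁻¹ * n⁻¹ * q * n with hd
  have hdC : d ∈ φ.C := by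
    have := φ.comm_mem _ (inv_mem hq.1) _ (inv_mem hn.1)
    rwa [commutatorElement_def, inv_inv, inv_inv, ← hd] at this
  have hqn : q * n = n * q * d := by rw [hd]; group
  have hd2 : d ^ 2 = 1 := by
    have h1 := pow_swap hqn (φ.comm_C_L hdC (φ.F_le hq.1)) (φ.comm_C_L hdC (φ.F_le hn.1)) 2
    rw [Subgroup.mem_centralizer_iff.1 hn.2 _ hq2, left_eq_mul] at h1
    exact h1
  rcases eq_or_ne d 1 with hd1 | hd1
  · rw [hd1, mul_one] at hqn
    obtain ⟨e, he, rfl | rfl⟩ := hcase n hn hqn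
    · simpa using hline n he 1 (one_mem _) hy1
    · rw [mul_smul]; exact hline e he q hq hq1
  · have hdc : d = c := by
      have hd' : ((φ.unitHom ⟨d, hdC⟩ : φ.Kˣ) : φ.K) = -1 := by
        refine (sq_eq_one_iff.1 ?_).resolve_left fun h => hd1 ?_
        · rw [← Units.val_pow_eq_pow_val, ← map_pow, ← Units.val_one]
          congr 1
          rw [show (⟨d, hdC⟩ : φ.C) ^ 2 = 1 from Subtype.ext hd2, map_one]
        · exact congrArg Subtype.val (φ.unitHom_injective (a₁ := ⟨d, hdC⟩) (a₂ := 1)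
            ((Units.ext h).trans (map_one _).symm))
      exact congrArg Subtype.val (φ.unitHom_injective (Units.ext (hd'.trans hcneg.symm)))
    have hcc : c * c = 1 := by rw [← hdc, ← pow_two, hd2]
    have hcomm : Commute q (n * m) := by
      show q * (n * m) = n * m * q
      calc q * (n * m) = n * q * (c * m) := by rw [← mul_assoc, hqn, hdc]; group
        _ = n * (q * m) * c := by rw [φ.comm_C_L hcC (φ.F_le hm.1)]; group
        _ = n * m * q * (c * c) := by rw [hqm]; group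
        _ = n * m * q := by rw [hcc, mul_one]
    obtain ⟨e, he, hh⟩ := hcase _ (mul_mem hn hm) hcomm
    have hm' : m⁻¹ = (m ^ 2)⁻¹ * m := by rw [pow_two]; group
    have hmm : (m ^ 2)⁻¹ ∈ lineStab φ v := inv_mem (C_le_lineStab φ v hm2)
    have hminv : Sp (m⁻¹ • y) := by rw [hm', mul_smul]; exact hline _ hmm m hm hmy
    rcases hh with hh | hh
    · have hn' : n = e * m⁻¹ := by rw [← hh]; group
      rw [hn', mul_smul]
      exact hline e he m⁻¹ (inv_mem hm) hminv
    · have hn' : n = e * (q * m⁻¹) := by rw [← mul_assoc, ← hh]; group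
      rw [hn', mul_smul]
      exact hline e he _ (mul_mem hq (inv_mem hm)) (by rw [mul_smul]; exact hqSp _ hminv)

end CfsgLib.ThreeVec49
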